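import Mathlib

/-!
# Elements of order 65 (S5769, pieces C0 and C1, helper11)
-/

set_option autoImplicit false

namespace Cfsg.Agent.H17E7

open Matrix Polynomial

namespace C1aux

theorem pow65_comm {R : Type*} [CommRing R] [CharP R 2] {M S Y : R} (h : M ^ 2 = S * M + 1) (hSY : S * Y = 1)
    (hY : Y ^ 64 = Y) (tr : Y + Y ^ 2 + Y ^ 4 + Y ^ 8 + Y ^ 16 + Y ^ 32 = 1) : M ^ 65 = 1 := by
  have hs : ∀ x y : R, (x + y) ^ 2 = x ^ 2 + y ^ 2 := fun x y => CharTwo.add_sq x y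
  have h4 : M ^ 4 = S ^ 3 * M + (S ^ 2 + 1) := by
    calc M ^ 4 = (M ^ 2) ^ 2 := by ring
      _ = (S * M) ^ 2 + 1 ^ 2 := by rw [h, hs]
      _ = S ^ 2 * M ^ 2 + 1 := by ring
      _ = S ^ 3 * M + (S ^ 2 + 1) := by rw [h]; ring
  have h8 : M ^ 8 = S ^ 7 * M + (S ^ 6 + (S ^ 4 + 1)) := by
    calc M ^ 8 = (M ^ 4) ^ 2 := by ring
      _ = (S ^ 3 * M) ^ 2 + ((S ^ 2) ^ 2 + 1 ^ 2) := by rw [h4, hs, hs]
      _ = S ^ 6 * M ^ 2 + (S ^ 4 + 1) := by ring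
      _ = S ^ 7 * M + (S ^ 6 + (S ^ 4 + 1)) := by rw [h]; ring
  have h16 : M ^ 16 = S ^ 15 * M + (S ^ 14 + (S ^ 12 + (S ^ 8 + 1))) := by
    calc M ^ 16 = (M ^ 8) ^ 2 := by ring
      _ = (S ^ 7 * M) ^ 2 + ((S ^ 6) ^ 2 + ((S ^ 4) ^ 2 + 1 ^ 2)) := by rw [h8, hs, hs, hs]
      _ = S ^ 14 * M ^ 2 + (S ^ 12 + (S ^ 8 + 1)) := by ring
      _ = S ^ 15 * M + (S ^ 14 + (S ^ 12 + (S ^ 8 + 1))) := by rw [h]; ring
  have h32 : M ^ 32 = S ^ 31 * M + (S ^ 30 + (S ^ 28 + (S ^ 24 + (S ^ 16 + 1)))) := by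
    calc M ^ 32 = (M ^ 16) ^ 2 := by ring
      _ = (S ^ 15 * M) ^ 2 + ((S ^ 14) ^ 2 + ((S ^ 12) ^ 2 + ((S ^ 8) ^ 2 + 1 ^ 2))) := by rw [h16, hs, hs, hs, hs]
      _ = S ^ 30 * M ^ 2 + (S ^ 28 + (S ^ 24 + (S ^ 16 + 1))) := by ring
      _ = S ^ 31 * M + (S ^ 30 + (S ^ 28 + (S ^ 24 + (S ^ 16 + 1)))) := by rw [h]; ring
  have h64 : M ^ 64 = S ^ 63 * M + (S ^ 62 + (S ^ 60 + (S ^ 56 + (S ^ 48 + (S ^ 32 + 1))))) := by
    calc M ^ 64 = (M ^ 32) ^ 2 := by ring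
      _ = (S ^ 31 * M) ^ 2 + ((S ^ 30) ^ 2 + ((S ^ 28) ^ 2 + ((S ^ 24) ^ 2 + ((S ^ 16) ^ 2 + 1 ^ 2)))) := by
          rw [h32, hs, hs, hs, hs, hs]
      _ = S ^ 62 * M ^ 2 + (S ^ 60 + (S ^ 56 + (S ^ 48 + (S ^ 32 + 1)))) := by ring
      _ = S ^ 63 * M + (S ^ 62 + (S ^ 60 + (S ^ 56 + (S ^ 48 + (S ^ 32 + 1))))) := by rw [h]; ring
  have hYS : ∀ n : ℕ, S ^ n * Y ^ n = 1 := by
    intro n
    rw [← mul_pow, hSY, one_pow]
  have hY63 : Y ^ 63 = 1 := by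
    calc Y ^ 63 = (S * Y) * Y ^ 63 := by rw [hSY, one_mul]
      _ = S * Y ^ 64 := by ring
      _ = 1 := by rw [hY, hSY]
  have hS63 : S ^ 63 = 1 := by
    have := hYS 63
    rwa [hY63, mul_one] at this
  have hSn : ∀ n m : ℕ, n + m = 63 → S ^ n = Y ^ m := by
    intro n m hnm
    calc S ^ n = S ^ n * (S ^ m * Y ^ m) := by rw [hYS, mul_one]
      _ = S ^ (n + m) * Y ^ m := by rw [pow_add]; ring
      _ = Y ^ m := by rw [hnm, hS63, one_mul]
  have hsum : S ^ 62 + (S ^ 60 + (S ^ 56 + (S ^ 48 + (S ^ 32 + 1)))) = S := by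
    rw [hSn 62 1 (by norm_num), hSn 60 3 (by norm_num), hSn 56 7 (by norm_num), hSn 48 15 (by norm_num),
      hSn 32 31 (by norm_num)]
    linear_combination S * tr - (1 + Y + Y ^ 3 + Y ^ 7 + Y ^ 15 + Y ^ 31) * hSY
  have h2 : (2 : R) = 0 := CharTwo.two_eq_zero
  calc M ^ 65 = M * M ^ 64 := by ring
    _ = M * (M + S) := by rw [h64, hsum, hS63, one_mul]
    _ = M ^ 2 + S * M := by ring
    _ = 1 := by rw [h]; linear_combination (S * M) * h2

end C1aux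

theorem pow65 {A : Type*} [Ring A] [CharP A 2] {M S Y : A} (hMS : Commute M S) (h : M ^ 2 = S * M + 1)
    (hSY : S * Y = 1) (hYS : Y * S = 1) (hY : Y ^ 64 = Y)
    (tr : Y + Y ^ 2 + Y ^ 4 + Y ^ 8 + Y ^ 16 + Y ^ 32 = 1) : M ^ 65 = 1 := by
  have hMY : Commute M Y := by
    have : M * Y = Y * M := by
      calc M * Y = (Y * S) * M * Y := by rw [hYS, one_mul]
        _ = Y * (M * S) * Y := by rw [hMS.eq]; simp only [mul_assoc]
        _ = Y * M * (S * Y) := by simp only [mul_assoc]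
        _ = Y * M := by rw [hSY, mul_one]
    exact this
  have hSYc : Commute S Y := by
    have : S * Y = Y * S := by rw [hSY, hYS]
    exact this
  have hcomm : ∀ x ∈ ({M, S, Y} : Set A), ∀ y ∈ ({M, S, Y} : Set A), x * y = y * x := by
    rintro x (rfl | rfl | rfl) y (rfl | rfl | rfl)
    · rfl
    · exact hMS.eq
    · exact hMY.eq
    · exact hMS.eq.symm
    · rfl
    · exact hSYc.eq
    · exact hMY.eq.symm
    · exact hSYc.eq.symm
    · rfl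
  let _ : CommRing (Subring.closure ({M, S, Y} : Set A)) := Subring.closureCommRingOfComm hcomm
  have hch : CharP (Subring.closure ({M, S, Y} : Set A)) 2 := by
    refine ⟨fun n => ?_⟩
    rw [← CharP.cast_eq_zero_iff A 2 n]
    constructor
    · intro hn
      have := congrArg (Subring.closure ({M, S, Y} : Set A)).subtype hn
      simpa using this
    · intro hn
      apply Subtype.ext
      simpa using hn
  let m : Subring.closure ({M, S, Y} : Set A) := ⟨M, Subring.subset_closure (by simp)⟩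
  let s : Subring.closure ({M, S, Y} : Set A) := ⟨S, Subring.subset_closure (by simp)⟩
  let y : Subring.closure ({M, S, Y} : Set A) := ⟨Y, Subring.subset_closure (by simp)⟩
  have := C1aux.pow65_comm (R := Subring.closure ({M, S, Y} : Set A)) (M := m) (S := s) (Y := y)
    (Subtype.ext h) (Subtype.ext hSY) (Subtype.ext hY) (Subtype.ext tr)
  exact congrArg Subtype.val this

namespace C1aux

variable {F : Type*} [Field F]

theorem charP_two [Fintype F] (h64 : Fintype.card F = 64) : CharP F 2 := by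
  obtain ⟨p, hc, n, hp, hn⟩ := FiniteField.card' F
  have h1 : p ∣ 64 := by
    rw [← h64, hn]
    exact dvd_pow_self p n.2.ne'
  have h2 : p = 2 := by
    have : p ∣ 2 ^ 6 := by norm_num; exact h1
    exact (Nat.prime_dvd_prime_iff_eq hp Nat.prime_two).1 (hp.dvd_of_dvd_pow this)
  subst h2
  assumption

theorem sq4 [CharP F 2] (t : F) : (!![0, 1; 1, t] : Matrix (Fin 2) (Fin 2) F) ^ 4 =
    !![t ^ 2 + 1, t ^ 3; t ^ 3, t ^ 4 + t ^ 2 + 1] := by
  have h2 : (2 : F) = 0 := CharTwo.two_eq_zero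
  have e2 : (!![0, 1; 1, t] : Matrix (Fin 2) (Fin 2) F) ^ 2 = !![1, t; t, 1 + t ^ 2] := by
    rw [sq, Matrix.mul_fin_two]
    congr! 1
    ext i j
    fin_cases i <;> fin_cases j <;> simp <;> ring
  rw [show 4 = 2 * 2 from rfl, pow_mul, e2, sq, Matrix.mul_fin_two]
  ext i j
  fin_cases i <;> fin_cases j <;> simp
  · ring
  · linear_combination t * h2
  · linear_combination t * h2
  · linear_combination t ^ 2 * h2

theorem sq8 [CharP F 2] (t : F) : (!![0, 1; 1, t] : Matrix (Fin 2) (Fin 2) F) ^ 8 =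
    !![t ^ 6 + t ^ 4 + 1, t ^ 7; t ^ 7, t ^ 8 + t ^ 6 + t ^ 4 + 1] := by
  have h2 : (2 : F) = 0 := CharTwo.two_eq_zero
  rw [show 8 = 4 * 2 from rfl, pow_mul, sq4, sq, Matrix.mul_fin_two]
  ext i j
  fin_cases i <;> fin_cases j <;> simp
  · linear_combination t ^ 2 * h2
  · linear_combination (t ^ 3 + t ^ 5) * h2
  · linear_combination (t ^ 3 + t ^ 5) * h2
  · linear_combination (t ^ 6 + t ^ 4 + t ^ 2) * h2

theorem entry5 [CharP F 2] (t : F) : ((!![0, 1; 1, t] : Matrix (Fin 2) (Fin 2) F) ^ 5) 0 1 =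
    (t ^ 2 + t + 1) ^ 2 := by
  have h2 : (2 : F) = 0 := CharTwo.two_eq_zero
  rw [pow_succ, sq4, Matrix.mul_fin_two]
  simp
  linear_combination (-t ^ 3 - t ^ 2 - t) * h2

theorem entry13 [CharP F 2] (t : F) : ((!![0, 1; 1, t] : Matrix (Fin 2) (Fin 2) F) ^ 13) 0 1 =
    (t ^ 6 + t ^ 5 + t ^ 4 + t + 1) ^ 2 := by
  have h2 : (2 : F) = 0 := CharTwo.two_eq_zero
  have : (!![0, 1; 1, t] : Matrix (Fin 2) (Fin 2) F) ^ 13 =
      (!![0, 1; 1, t] ^ 8) * (!![0, 1; 1, t] ^ 4) * !![0, 1; 1, t] := by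
    rw [← pow_add, ← pow_succ]
  rw [this, sq4, sq8, Matrix.mul_fin_two, Matrix.mul_fin_two]
  simp
  linear_combination (-t ^ 11 - t ^ 9 + t ^ 8 - t ^ 7 - t ^ 6 - 2 * t ^ 5 - t) * h2

theorem exists_t [Fintype F] (h64 : Fintype.card F = 64) : ∃ t y : F, t * y = 1 ∧
    y + y ^ 2 + y ^ 4 + y ^ 8 + y ^ 16 + y ^ 32 = 1 ∧ t ^ 2 + t + 1 ≠ 0 ∧
      t ^ 6 + t ^ 5 + t ^ 4 + t + 1 ≠ 0 := by
  classical
  have hch := charP_two h64
  have hs : ∀ x y : F, (x + y) ^ 2 = x ^ 2 + y ^ 2 := fun x y => CharTwo.add_sq x y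
  set P : F[X] := (X ^ 32 + X ^ 16 + X ^ 8 + X ^ 4 + X ^ 2 + X) * (X ^ 2 + X + 1) *
    (X ^ 6 + X ^ 5 + X ^ 2 + X + 1) with hP
  have hd : P.natDegree = 40 := by
    rw [hP]
    compute_degree!
  have hP0 : P ≠ 0 := by
    intro h
    rw [h, natDegree_zero] at hd
    norm_num at hd
  obtain ⟨y, hy⟩ : ∃ y : F, P.eval y ≠ 0 := by
    by_contra hcon
    push Not at hcon
    have h1 : (Finset.univ : Finset F).val ≤ P.roots := by
      rw [Multiset.le_iff_subset Finset.univ.nodup]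
      intro x _
      exact (mem_roots hP0).2 (hcon x)
    have h2 := Multiset.card_le_card h1
    have h3 := P.card_roots'
    rw [hd] at h3
    have h4 : Multiset.card (Finset.univ : Finset F).val = 64 := by rw [← h64]; rfl
    omega
  rw [hP] at hy
  simp only [eval_mul, eval_add, eval_pow, eval_X, eval_one] at hy
  obtain ⟨hy12, hy3⟩ := mul_ne_zero_iff.1 hy
  obtain ⟨hy1, hy2⟩ := mul_ne_zero_iff.1 hy12
  have hy64 : y ^ 64 = y := by
    have := FiniteField.pow_card y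
    rwa [h64] at this
  have hy0 : y ≠ 0 := by
    rintro rfl
    apply hy1
    simp
  have htr : y + y ^ 2 + y ^ 4 + y ^ 8 + y ^ 16 + y ^ 32 = 1 := by
    have e : (y + y ^ 2 + y ^ 4 + y ^ 8 + y ^ 16 + y ^ 32) ^ 2 = y + y ^ 2 + y ^ 4 + y ^ 8 + y ^ 16 + y ^ 32 := by
      rw [hs, hs, hs, hs, hs]
      linear_combination hy64
    have e1 : y + y ^ 2 + y ^ 4 + y ^ 8 + y ^ 16 + y ^ 32 ≠ 0 := by
      intro h
      apply hy1
      linear_combination h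
    have e2 : (y + y ^ 2 + y ^ 4 + y ^ 8 + y ^ 16 + y ^ 32) * (y + y ^ 2 + y ^ 4 + y ^ 8 + y ^ 16 + y ^ 32) =
        (y + y ^ 2 + y ^ 4 + y ^ 8 + y ^ 16 + y ^ 32) * 1 := by
      rw [mul_one, ← sq, e]
    exact mul_left_cancel₀ e1 e2
  refine ⟨y⁻¹, y, inv_mul_cancel₀ hy0, htr, ?_, ?_⟩
  · intro h
    apply hy2
    have e : y⁻¹ * y = 1 := inv_mul_cancel₀ hy0
    linear_combination y ^ 2 * h - (1 + y + y⁻¹ * y) * e
  · intro h
    apply hy3
    have e : ∀ n : ℕ, y⁻¹ ^ n * y ^ n = 1 := fun n => by rw [← mul_pow, inv_mul_cancel₀ hy0, one_pow]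
    linear_combination y ^ 6 * h - e 6 - y * e 5 - y ^ 2 * e 4 - y ^ 5 * e 1

theorem exists_A' [Fintype F] (h64 : Fintype.card F = 64) :
    ∃ t : F, (!![0, 1; 1, t] : Matrix (Fin 2) (Fin 2) F) ^ 65 = 1 ∧
      ((!![0, 1; 1, t] : Matrix (Fin 2) (Fin 2) F) ^ 5) 0 1 ≠ 0 ∧
      ((!![0, 1; 1, t] : Matrix (Fin 2) (Fin 2) F) ^ 13) 0 1 ≠ 0 := by
  have hch := charP_two h64
  have h2 : (2 : F) = 0 := CharTwo.two_eq_zero
  obtain ⟨t, y, hty, htr, h5, h13⟩ := exists_t h64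
  have hyt : y * t = 1 := by rw [mul_comm]; exact hty
  have hy64 : y ^ 64 = y := by
    have := FiniteField.pow_card y
    rwa [h64] at this
  refine ⟨t, ?_, by rw [entry5]; exact pow_ne_zero 2 h5, by rw [entry13]; exact pow_ne_zero 2 h13⟩
  have hmap : ∀ z : F, (Matrix.scalar (Fin 2) z : Matrix (Fin 2) (Fin 2) F) = z • 1 := by
    intro z
    rw [Matrix.smul_one_eq_diagonal]
    rfl
  refine pow65 (A := Matrix (Fin 2) (Fin 2) F) (S := Matrix.scalar (Fin 2) t) (Y := Matrix.scalar (Fin 2) y)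
    ?_ ?_ ?_ ?_ ?_ ?_
  · exact (Matrix.scalar_commute t (fun r => mul_comm t r) _).symm
  · rw [hmap, sq, Matrix.mul_fin_two]
    ext i j
    fin_cases i <;> fin_cases j <;> simp
    ring
  · rw [← map_mul, hty, map_one]
  · rw [← map_mul, hyt, map_one]
  · rw [← map_pow, hy64]
  · rw [← map_pow, ← map_pow, ← map_pow, ← map_pow, ← map_pow, ← map_add, ← map_add, ← map_add, ← map_add,
      ← map_add, htr, map_one]

theorem orderOf_65 {G : Type*} [Group G] {g : G} (h : g ^ 65 = 1) (h5 : g ^ 5 ≠ 1) (h13 : g ^ 13 ≠ 1) :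
    orderOf g = 65 := by
  apply orderOf_eq_of_pow_and_pow_div_prime (by norm_num) h
  intro p hp hpd
  have h1 : p = 5 ∨ p = 13 := by
    have h2 : p ∣ 5 * 13 := by norm_num; exact hpd
    rcases (hp.dvd_mul).1 h2 with h3 | h3
    · left; exact (Nat.prime_dvd_prime_iff_eq hp (by norm_num)).1 h3
    · right; exact (Nat.prime_dvd_prime_iff_eq hp (by norm_num)).1 h3
  rcases h1 with rfl | rfl
  · norm_num; exact h13
  · norm_num; exact h5

end C1aux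

theorem exists_A {F₆₄ : Type*} [Field F₆₄] [Fintype F₆₄] (h64 : Fintype.card F₆₄ = 64) :
    ∃ t : F₆₄, (!![0, 1; 1, t] : Matrix (Fin 2) (Fin 2) F₆₄) ^ 65 = 1 ∧
      (!![0, 1; 1, t] : Matrix (Fin 2) (Fin 2) F₆₄) ^ 5 ≠ 1 ∧
      (!![0, 1; 1, t] : Matrix (Fin 2) (Fin 2) F₆₄) ^ 13 ≠ 1 := by
  obtain ⟨t, h, h5, h13⟩ := C1aux.exists_A' h64
  refine ⟨t, h, fun e => h5 ?_, fun e => h13 ?_⟩
  · rw [e]; simp
  · rw [e]; simp

theorem psl2 {F₆₄ : Type*} [Field F₆₄] [Fintype F₆₄] (h64 : Fintype.card F₆₄ = 64) :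
    ∃ g : Matrix.ProjectiveSpecialLinearGroup (Fin 2) F₆₄, orderOf g = 65 := by
  obtain ⟨t, h, h5, h13⟩ := C1aux.exists_A' h64
  have hch := C1aux.charP_two h64
  let A : Matrix.SpecialLinearGroup (Fin 2) F₆₄ := ⟨!![0, 1; 1, t], by
    rw [Matrix.det_fin_two_of]
    have h2 : (2 : F₆₄) = 0 := CharTwo.two_eq_zero
    linear_combination (-1 : F₆₄) * h2⟩
  have hA : ∀ n : ℕ, ((A ^ n : Matrix.SpecialLinearGroup (Fin 2) F₆₄) : Matrix (Fin 2) (Fin 2) F₆₄) =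
      !![0, 1; 1, t] ^ n := fun n => Matrix.SpecialLinearGroup.coe_pow A n
  have key : ∀ n : ℕ, (((!![0, 1; 1, t] : Matrix (Fin 2) (Fin 2) F₆₄) ^ n) 0 1 ≠ 0) →
      ((A : Matrix.SpecialLinearGroup (Fin 2) F₆₄) : Matrix.ProjectiveSpecialLinearGroup (Fin 2) F₆₄) ^ n ≠ 1 := by
    intro n hn he
    have e1 : ((A ^ n : Matrix.SpecialLinearGroup (Fin 2) F₆₄) :
        Matrix.ProjectiveSpecialLinearGroup (Fin 2) F₆₄) = 1 := he
    rw [QuotientGroup.eq_one_iff, Matrix.SpecialLinearGroup.mem_center_iff] at e1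
    obtain ⟨r, -, hr⟩ := e1
    apply hn
    rw [← hA, ← hr]
    simp
  refine ⟨(A : Matrix.ProjectiveSpecialLinearGroup (Fin 2) F₆₄), C1aux.orderOf_65 ?_ (key 5 h5) (key 13 h13)⟩
  have e1 : A ^ 65 = 1 := by
    apply Subtype.ext
    rw [hA, h]
    rfl
  have e2 : ((A ^ 65 : Matrix.SpecialLinearGroup (Fin 2) F₆₄) :
        Matrix.ProjectiveSpecialLinearGroup (Fin 2) F₆₄) = 1 := by rw [e1]; rfl
  exact e2

end Cfsg.Agent.H17E7
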