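import Mathlib
import Cfsg.Prelude.Def_Classical

/-!
# S5769, piece C2: elements of order 65 in `PSp₄(8)`, `PSL₄(8)`, `PSp₆(8)` (owner: helper27)
-/

set_option autoImplicit false
set_option maxRecDepth 100000

namespace Cfsg.Agent.H17E7.C2

open Matrix

/-- the field with eight elements, `c ^ 3 = c + 1` -/
@[ext] structure K8 where
  a : ZMod 2
  b : ZMod 2
  c : ZMod 2
  deriving DecidableEq

namespace K8

instance : Zero K8 := ⟨⟨0, 0, 0⟩⟩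
instance : One K8 := ⟨⟨1, 0, 0⟩⟩
instance : Add K8 := ⟨fun x y => ⟨x.a + y.a, x.b + y.b, x.c + y.c⟩⟩
instance : Neg K8 := ⟨fun x => ⟨-x.a, -x.b, -x.c⟩⟩
instance : Mul K8 := ⟨fun x y => ⟨x.a * y.a + (x.b * y.c + x.c * y.b),
  x.a * y.b + x.b * y.a + (x.b * y.c + x.c * y.b) + x.c * y.c, x.a * y.c + x.b * y.b + x.c * y.a + x.c * y.c⟩⟩

theorem zero_a : (0 : K8).a = 0 := rfl
theorem zero_b : (0 : K8).b = 0 := rfl
theorem zero_c : (0 : K8).c = 0 := rfl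
theorem one_a : (1 : K8).a = 1 := rfl
theorem one_b : (1 : K8).b = 0 := rfl
theorem one_c : (1 : K8).c = 0 := rfl
theorem add_a (x y : K8) : (x + y).a = x.a + y.a := rfl
theorem add_b (x y : K8) : (x + y).b = x.b + y.b := rfl
theorem add_c (x y : K8) : (x + y).c = x.c + y.c := rfl
theorem neg_a (x : K8) : (-x).a = -x.a := rfl
theorem neg_b (x : K8) : (-x).b = -x.b := rfl
theorem neg_c (x : K8) : (-x).c = -x.c := rfl
theorem mul_a (x y : K8) : (x * y).a = x.a * y.a + (x.b * y.c + x.c * y.b) := rfl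
theorem mul_b (x y : K8) : (x * y).b = x.a * y.b + x.b * y.a + (x.b * y.c + x.c * y.b) + x.c * y.c := rfl
theorem mul_c (x y : K8) : (x * y).c = x.a * y.c + x.b * y.b + x.c * y.a + x.c * y.c := rfl

instance : CommRing K8 where
  add_assoc x y z := by ext <;> simp only [add_a, add_b, add_c] <;> ring
  zero_add x := by ext <;> simp only [add_a, add_b, add_c, zero_a, zero_b, zero_c] <;> ring
  add_zero x := by ext <;> simp only [add_a, add_b, add_c, zero_a, zero_b, zero_c] <;> ring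
  add_comm x y := by ext <;> simp only [add_a, add_b, add_c] <;> ring
  neg_add_cancel x := by
    ext <;> simp only [add_a, add_b, add_c, zero_a, zero_b, zero_c, neg_a, neg_b, neg_c] <;> ring
  mul_assoc x y z := by ext <;> simp only [mul_a, mul_b, mul_c] <;> ring
  one_mul x := by ext <;> simp only [mul_a, mul_b, mul_c, one_a, one_b, one_c] <;> ring
  mul_one x := by ext <;> simp only [mul_a, mul_b, mul_c, one_a, one_b, one_c] <;> ring
  left_distrib x y z := by ext <;> simp only [mul_a, mul_b, mul_c, add_a, add_b, add_c] <;> ring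
  right_distrib x y z := by ext <;> simp only [mul_a, mul_b, mul_c, add_a, add_b, add_c] <;> ring
  zero_mul x := by ext <;> simp only [mul_a, mul_b, mul_c, zero_a, zero_b, zero_c] <;> ring
  mul_zero x := by ext <;> simp only [mul_a, mul_b, mul_c, zero_a, zero_b, zero_c] <;> ring
  mul_comm x y := by ext <;> simp only [mul_a, mul_b, mul_c] <;> ring
  nsmul := nsmulRec
  zsmul := zsmulRec

theorem inv_of_ne : ∀ a b c : ZMod 2, (⟨a, b, c⟩ : K8) ≠ 0 → (⟨a, b, c⟩ : K8) * ((⟨a, b, c⟩ : K8) * (⟨a, b, c⟩ * ⟨a, b, c⟩) *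
    ((⟨a, b, c⟩ : K8) * (⟨a, b, c⟩ * ⟨a, b, c⟩))) = 1 := by decide +kernel

end K8

section hom

variable {F : Type*} [Field F] [CharP F 2]

/-- the embedding given by a root of `x ^ 3 = x + 1` -/
def hom (c : F) (hc : c ^ 3 = c + 1) : K8 →+* F where
  toFun x := ZMod.castHom (dvd_refl 2) F x.a + ZMod.castHom (dvd_refl 2) F x.b * c + ZMod.castHom (dvd_refl 2) F x.c * c ^ 2
  map_one' := by
    rw [K8.one_a, K8.one_b, K8.one_c, map_one, map_zero]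
    ring
  map_zero' := by
    rw [K8.zero_a, K8.zero_b, K8.zero_c, map_zero]
    ring
  map_add' x y := by
    rw [K8.add_a, K8.add_b, K8.add_c, map_add, map_add, map_add]
    ring
  map_mul' x y := by
    rw [K8.mul_a, K8.mul_b, K8.mul_c]
    simp only [map_add, map_mul]
    linear_combination (-(ZMod.castHom (dvd_refl 2) F x.b * ZMod.castHom (dvd_refl 2) F y.c +
      ZMod.castHom (dvd_refl 2) F x.c * ZMod.castHom (dvd_refl 2) F y.b +
      ZMod.castHom (dvd_refl 2) F x.c * ZMod.castHom (dvd_refl 2) F y.c * c)) * hc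

theorem hom_injective (c : F) (hc : c ^ 3 = c + 1) : Function.Injective (hom c hc) := by
  rw [injective_iff_map_eq_zero]
  intro x hx
  by_contra hne
  have h1 := K8.inv_of_ne x.a x.b x.c hne
  have h2 := congrArg (hom c hc) h1
  rw [map_mul, map_one] at h2
  have h3 : hom c hc ⟨x.a, x.b, x.c⟩ = 0 := hx
  rw [h3, zero_mul] at h2
  exact zero_ne_one h2

end hom

theorem exists_c {F : Type*} [Field F] [Fintype F] (h8 : Fintype.card F = 8) :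
    CharP F 2 ∧ ∃ c : F, c ^ 3 = c + 1 := by
  classical
  have hf : Fact (Nat.Prime 2) := ⟨Nat.prime_two⟩
  have hch : CharP F 2 := charP_of_card_eq_prime_pow (p := 2) (f := 3) (by rw [h8]; norm_num)
  refine ⟨hch, ?_⟩
  have h2 : (2 : F) = 0 := by
    have := CharP.cast_eq_zero F 2
    exact_mod_cast this
  obtain ⟨x, hx⟩ : ∃ x : F, x ∉ ({0, 1} : Finset F) := by
    by_contra hcon
    push Not at hcon
    have h3 : (Finset.univ : Finset F).card ≤ ({0, 1} : Finset F).card := Finset.card_le_card fun x _ => hcon x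
    have h4 : ({0, 1} : Finset F).card ≤ 2 := Finset.card_le_two
    rw [Finset.card_univ, h8] at h3
    omega
  rw [Finset.mem_insert, Finset.mem_singleton, not_or] at hx
  have h7 : x ^ 7 = 1 := by
    have := FiniteField.pow_card_sub_one_eq_one x hx.1
    rwa [h8] at this
  have h3 : (x - 1) * ((x ^ 3 + x + 1) * (x ^ 3 + x ^ 2 + 1)) = 0 := by
    linear_combination h7 + (-(x ^ 2 + x ^ 3) + x ^ 5 + x ^ 4 + x - x ^ 6 + x ^ 6 - x) * h2 * 0 +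
      (x ^ 4 - x ^ 3) * h2
  rcases mul_eq_zero.1 h3 with h4 | h4
  · exact absurd (sub_eq_zero.1 h4) hx.2
  rcases mul_eq_zero.1 h4 with h5 | h5
  · exact ⟨x, by linear_combination h5 - (x + 1) * h2⟩
  · refine ⟨x⁻¹, ?_⟩
    have h6 : x * x⁻¹ = 1 := mul_inv_cancel₀ hx.1
    linear_combination (x⁻¹) ^ 3 * h5 - ((x ^ 2 * x⁻¹ ^ 2 + x * x⁻¹ + 1) + x⁻¹ * (x * x⁻¹ + 1)) * h6 - (x⁻¹ + 1) * h2

/-- an element of order 65 modulo the centre -/
theorem order65 {G : Type*} [Group G] (g h : G) (h65 : g ^ 65 = 1) (h5 : h * g ^ 5 ≠ g ^ 5 * h)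
    (h13 : h * g ^ 13 ≠ g ^ 13 * h) : orderOf (QuotientGroup.mk g : G ⧸ Subgroup.center G) = 65 := by
  have hd : orderOf (QuotientGroup.mk g : G ⧸ Subgroup.center G) ∣ 65 := by
    apply orderOf_dvd_of_pow_eq_one
    rw [← QuotientGroup.mk_pow, h65, QuotientGroup.mk_one]
  have hk : ∀ k, h * g ^ k ≠ g ^ k * h → ¬ orderOf (QuotientGroup.mk g : G ⧸ Subgroup.center G) ∣ k := by
    intro k hk hd
    have h1 := orderOf_dvd_iff_pow_eq_one.1 hd
    rw [← QuotientGroup.mk_pow, QuotientGroup.eq_one_iff, Subgroup.mem_center_iff] at h1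
    exact hk (h1 h)
  have h1 : orderOf (QuotientGroup.mk g : G ⧸ Subgroup.center G) ∈ Nat.divisors 65 :=
    Nat.mem_divisors.2 ⟨hd, by norm_num⟩
  have h2 : Nat.divisors 65 = {1, 5, 13, 65} := by decide +kernel
  rw [h2] at h1
  simp only [Finset.mem_insert, Finset.mem_singleton] at h1
  rcases h1 with h1 | h1 | h1 | h1
  · exact absurd (h1.dvd.trans (one_dvd 5)) (hk 5 h5)
  · exact absurd h1.dvd (hk 5 h5)
  · exact absurd h1.dvd (hk 13 h13)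
  · exact h1

theorem pows {A : Type*} [Monoid A] {m m2 m4 m5 m8 m13 m16 m32 m64 : A} (h2 : m * m = m2) (h4 : m2 * m2 = m4)
    (h5 : m4 * m = m5) (h8 : m4 * m4 = m8) (h13 : m8 * m5 = m13) (h16 : m8 * m8 = m16) (h32 : m16 * m16 = m32)
    (h64 : m32 * m32 = m64) (h65 : m64 * m = 1) : m ^ 65 = 1 ∧ m ^ 5 = m5 ∧ m ^ 13 = m13 := by
  have e2 : m ^ 2 = m2 := by rw [pow_two, h2]
  have e4 : m ^ 4 = m4 := by rw [show 4 = 2 + 2 from rfl, pow_add, e2, h4]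
  have e5 : m ^ 5 = m5 := by rw [pow_succ, e4, h5]
  have e8 : m ^ 8 = m8 := by rw [show 8 = 4 + 4 from rfl, pow_add, e4, h8]
  have e13 : m ^ 13 = m13 := by rw [show 13 = 8 + 5 from rfl, pow_add, e8, e5, h13]
  have e16 : m ^ 16 = m16 := by rw [show 16 = 8 + 8 from rfl, pow_add, e8, h16]
  have e32 : m ^ 32 = m32 := by rw [show 32 = 16 + 16 from rfl, pow_add, e16, h32]
  have e64 : m ^ 64 = m64 := by rw [show 64 = 32 + 32 from rfl, pow_add, e32, h64]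
  exact ⟨by rw [pow_succ, e64, h65], e5, e13⟩

/-- codes of the elements -/
def cd (n : ℕ) : K8 := ⟨if n % 2 = 1 then 1 else 0, if n / 2 % 2 = 1 then 1 else 0, if n / 4 % 2 = 1 then 1 else 0⟩

/-- entries -/
def en (l : List (List ℕ)) (i j : ℕ) : K8 := cd ((l.getD i []).getD j 0)

/-- matrices on `Fin 4` -/
def m4 (l : List (List ℕ)) : Matrix (Fin 4) (Fin 4) K8 := fun i j => en l i j

/-- numbering -/
def nu {m : ℕ} : Fin m ⊕ Fin m → ℕ
  | Sum.inl i => i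
  | Sum.inr i => m + i

/-- matrices on `Fin m ⊕ Fin m` -/
def ms (m : ℕ) (l : List (List ℕ)) : Matrix (Fin m ⊕ Fin m) (Fin m ⊕ Fin m) K8 := fun i j => en l (nu i) (nu j)

def q1 : List (List ℕ) := [[0, 0, 1, 0], [0, 0, 0, 1], [1, 0, 0, 2], [0, 1, 2, 4]]
def q2 : List (List ℕ) := [[1, 0, 0, 2], [0, 1, 2, 4], [0, 2, 5, 3], [2, 4, 3, 3]]
def q4 : List (List ℕ) := [[5, 3, 6, 4], [3, 3, 4, 5], [6, 4, 6, 2], [4, 5, 2, 2]]
def q5 : List (List ℕ) := [[6, 4, 6, 2], [4, 5, 2, 2], [6, 2, 2, 0], [2, 2, 0, 2]]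
def q8 : List (List ℕ) := [[6, 6, 5, 2], [6, 1, 2, 1], [5, 2, 2, 4], [2, 1, 4, 1]]
def q13 : List (List ℕ) := [[0, 3, 4, 4], [3, 6, 4, 7], [4, 4, 3, 6], [4, 7, 6, 4]]
def q16 : List (List ℕ) := [[3, 7, 6, 1], [7, 6, 1, 4], [6, 1, 1, 4], [1, 4, 4, 2]]
def q32 : List (List ℕ) := [[5, 4, 4, 5], [4, 6, 5, 5], [4, 5, 4, 5], [5, 5, 5, 5]]
def q64 : List (List ℕ) := [[0, 2, 1, 0], [2, 4, 0, 1], [1, 0, 0, 0], [0, 1, 0, 0]]

def r1 : List (List ℕ) := [[0, 0, 0, 1, 0, 0], [0, 0, 0, 0, 1, 0], [0, 0, 1, 0, 0, 0], [1, 0, 0, 0, 2, 0], [0, 1, 0, 2, 4, 0], [0, 0, 0, 0, 0, 1]]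
def r2 : List (List ℕ) := [[1, 0, 0, 0, 2, 0], [0, 1, 0, 2, 4, 0], [0, 0, 1, 0, 0, 0], [0, 2, 0, 5, 3, 0], [2, 4, 0, 3, 3, 0], [0, 0, 0, 0, 0, 1]]
def r4 : List (List ℕ) := [[5, 3, 0, 6, 4, 0], [3, 3, 0, 4, 5, 0], [0, 0, 1, 0, 0, 0], [6, 4, 0, 6, 2, 0], [4, 5, 0, 2, 2, 0], [0, 0, 0, 0, 0, 1]]
def r5 : List (List ℕ) := [[6, 4, 0, 6, 2, 0], [4, 5, 0, 2, 2, 0], [0, 0, 1, 0, 0, 0], [6, 2, 0, 2, 0, 0], [2, 2, 0, 0, 2, 0], [0, 0, 0, 0, 0, 1]]
def r8 : List (List ℕ) := [[6, 6, 0, 5, 2, 0], [6, 1, 0, 2, 1, 0], [0, 0, 1, 0, 0, 0], [5, 2, 0, 2, 4, 0], [2, 1, 0, 4, 1, 0], [0, 0, 0, 0, 0, 1]]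
def r13 : List (List ℕ) := [[0, 3, 0, 4, 4, 0], [3, 6, 0, 4, 7, 0], [0, 0, 1, 0, 0, 0], [4, 4, 0, 3, 6, 0], [4, 7, 0, 6, 4, 0], [0, 0, 0, 0, 0, 1]]
def r16 : List (List ℕ) := [[3, 7, 0, 6, 1, 0], [7, 6, 0, 1, 4, 0], [0, 0, 1, 0, 0, 0], [6, 1, 0, 1, 4, 0], [1, 4, 0, 4, 2, 0], [0, 0, 0, 0, 0, 1]]
def r32 : List (List ℕ) := [[5, 4, 0, 4, 5, 0], [4, 6, 0, 5, 5, 0], [0, 0, 1, 0, 0, 0], [4, 5, 0, 4, 5, 0], [5, 5, 0, 5, 5, 0], [0, 0, 0, 0, 0, 1]]
def r64 : List (List ℕ) := [[0, 2, 0, 1, 0, 0], [2, 4, 0, 0, 1, 0], [0, 0, 1, 0, 0, 0], [1, 0, 0, 0, 0, 0], [0, 1, 0, 0, 0, 0], [0, 0, 0, 0, 0, 1]]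

theorem f4_2 : m4 q1 * m4 q1 = m4 q2 := by decide +kernel
theorem f4_4 : m4 q2 * m4 q2 = m4 q4 := by decide +kernel
theorem f4_5 : m4 q4 * m4 q1 = m4 q5 := by decide +kernel
theorem f4_8 : m4 q4 * m4 q4 = m4 q8 := by decide +kernel
theorem f4_13 : m4 q8 * m4 q5 = m4 q13 := by decide +kernel
theorem f4_16 : m4 q8 * m4 q8 = m4 q16 := by decide +kernel
theorem f4_32 : m4 q16 * m4 q16 = m4 q32 := by decide +kernel
theorem f4_64 : m4 q32 * m4 q32 = m4 q64 := by decide +kernel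
theorem f4_65 : m4 q64 * m4 q1 = 1 := by decide +kernel
theorem s2_2 : ms 2 q1 * ms 2 q1 = ms 2 q2 := by decide +kernel
theorem s2_4 : ms 2 q2 * ms 2 q2 = ms 2 q4 := by decide +kernel
theorem s2_5 : ms 2 q4 * ms 2 q1 = ms 2 q5 := by decide +kernel
theorem s2_8 : ms 2 q4 * ms 2 q4 = ms 2 q8 := by decide +kernel
theorem s2_13 : ms 2 q8 * ms 2 q5 = ms 2 q13 := by decide +kernel
theorem s2_16 : ms 2 q8 * ms 2 q8 = ms 2 q16 := by decide +kernel
theorem s2_32 : ms 2 q16 * ms 2 q16 = ms 2 q32 := by decide +kernel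
theorem s2_64 : ms 2 q32 * ms 2 q32 = ms 2 q64 := by decide +kernel
theorem s2_65 : ms 2 q64 * ms 2 q1 = 1 := by decide +kernel
theorem s3_2 : ms 3 r1 * ms 3 r1 = ms 3 r2 := by decide +kernel
theorem s3_4 : ms 3 r2 * ms 3 r2 = ms 3 r4 := by decide +kernel
theorem s3_5 : ms 3 r4 * ms 3 r1 = ms 3 r5 := by decide +kernel
theorem s3_8 : ms 3 r4 * ms 3 r4 = ms 3 r8 := by decide +kernel
theorem s3_13 : ms 3 r8 * ms 3 r5 = ms 3 r13 := by decide +kernel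
theorem s3_16 : ms 3 r8 * ms 3 r8 = ms 3 r16 := by decide +kernel
theorem s3_32 : ms 3 r16 * ms 3 r16 = ms 3 r32 := by decide +kernel
theorem s3_64 : ms 3 r32 * ms 3 r32 = ms 3 r64 := by decide +kernel
theorem s3_65 : ms 3 r64 * ms 3 r1 = 1 := by decide +kernel

theorem s2_mem : ms 2 q1 * J (Fin 2) K8 * (ms 2 q1)ᵀ = J (Fin 2) K8 := by decide +kernel
theorem s2_n5 : J (Fin 2) K8 * ms 2 q5 ≠ ms 2 q5 * J (Fin 2) K8 := by decide +kernel
theorem s2_n13 : J (Fin 2) K8 * ms 2 q13 ≠ ms 2 q13 * J (Fin 2) K8 := by decide +kernel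
theorem s3_mem : ms 3 r1 * J (Fin 3) K8 * (ms 3 r1)ᵀ = J (Fin 3) K8 := by decide +kernel
theorem s3_n5 : J (Fin 3) K8 * ms 3 r5 ≠ ms 3 r5 * J (Fin 3) K8 := by decide +kernel
theorem s3_n13 : J (Fin 3) K8 * ms 3 r13 ≠ ms 3 r13 * J (Fin 3) K8 := by decide +kernel

/-- an involution -/
def j4 : List (List ℕ) := [[0, 0, 1, 0], [0, 0, 0, 1], [1, 0, 0, 0], [0, 1, 0, 0]]

theorem f4_j : m4 j4 * m4 j4 = 1 := by decide +kernel
theorem f4_n5 : m4 j4 * m4 q5 ≠ m4 q5 * m4 j4 := by decide +kernel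
theorem f4_n13 : m4 j4 * m4 q13 ≠ m4 q13 * m4 j4 := by decide +kernel

theorem psp_of {m : ℕ} {F : Type*} [Field F] [Fintype F] (h8 : Fintype.card F = 8)
    (M M5 M13 : Matrix (Fin m ⊕ Fin m) (Fin m ⊕ Fin m) K8) (hM : M * J (Fin m) K8 * Mᵀ = J (Fin m) K8)
    (h : M ^ 65 = 1 ∧ M ^ 5 = M5 ∧ M ^ 13 = M13) (h5 : J (Fin m) K8 * M5 ≠ M5 * J (Fin m) K8)
    (h13 : J (Fin m) K8 * M13 ≠ M13 * J (Fin m) K8) : ∃ g : Cfsg.PSp m F, orderOf g = 65 := by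
  obtain ⟨hch, c, hc⟩ := exists_c h8
  let φ := hom c hc
  have hφ : Function.Injective φ := hom_injective c hc
  have hΦ : Function.Injective (φ.mapMatrix : Matrix (Fin m ⊕ Fin m) (Fin m ⊕ Fin m) K8 →+*
      Matrix (Fin m ⊕ Fin m) (Fin m ⊕ Fin m) F) := Matrix.map_injective hφ
  have hJ : φ.mapMatrix (J (Fin m) K8) = J (Fin m) F := map_J (Fin m) φ
  have hmem : φ.mapMatrix M ∈ symplecticGroup (Fin m) F :=
    SymplecticGroup.map_mem (SymplecticGroup.mem_iff.2 hM) φ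
  let g : symplecticGroup (Fin m) F := ⟨φ.mapMatrix M, hmem⟩
  let j : symplecticGroup (Fin m) F := SymplecticGroup.symJ (Fin m) F
  have hgp : ∀ k : ℕ, ((g ^ k : symplecticGroup (Fin m) F) : Matrix (Fin m ⊕ Fin m) (Fin m ⊕ Fin m) F) =
      φ.mapMatrix (M ^ k) := by
    intro k
    rw [map_pow]
    rfl
  have hn : ∀ k N, M ^ k = N → J (Fin m) K8 * N ≠ N * J (Fin m) K8 → j * g ^ k ≠ g ^ k * j := by
    intro k N hN hne h1
    apply hne
    apply hΦ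
    rw [map_mul, map_mul, hJ, ← hN, ← hgp]
    exact congrArg Subtype.val h1
  refine ⟨QuotientGroup.mk g, order65 g j ?_ (hn 5 _ h.2.1 h5) (hn 13 _ h.2.2 h13)⟩
  apply Subtype.ext
  rw [hgp, h.1, map_one]
  rfl

end Cfsg.Agent.H17E7.C2

namespace Cfsg.Agent.H17E7

open C2 Matrix

theorem psp4 {F₈ : Type*} [Field F₈] [Fintype F₈] (h8 : Fintype.card F₈ = 8) : ∃ g : Cfsg.PSp 2 F₈, orderOf g = 65 :=
  psp_of h8 (ms 2 q1) _ _ s2_mem (pows s2_2 s2_4 s2_5 s2_8 s2_13 s2_16 s2_32 s2_64 s2_65) s2_n5 s2_n13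

theorem psp6 {F₈ : Type*} [Field F₈] [Fintype F₈] (h8 : Fintype.card F₈ = 8) : ∃ g : Cfsg.PSp 3 F₈, orderOf g = 65 :=
  psp_of h8 (ms 3 r1) _ _ s3_mem (pows s3_2 s3_4 s3_5 s3_8 s3_13 s3_16 s3_32 s3_64 s3_65) s3_n5 s3_n13

theorem psl4 {F₈ : Type*} [Field F₈] [Fintype F₈] (h8 : Fintype.card F₈ = 8) :
    ∃ g : Matrix.ProjectiveSpecialLinearGroup (Fin 4) F₈, orderOf g = 65 := by
  obtain ⟨hch, c, hc⟩ := exists_c h8
  let φ := hom c hc
  have hφ : Function.Injective φ := hom_injective c hc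
  have hΦ : Function.Injective (φ.mapMatrix : Matrix (Fin 4) (Fin 4) K8 →+* Matrix (Fin 4) (Fin 4) F₈) :=
    Matrix.map_injective hφ
  obtain ⟨h65, h5, h13⟩ := pows f4_2 f4_4 f4_5 f4_8 f4_13 f4_16 f4_32 f4_64 f4_65
  have h2 : (2 : F₈) = 0 := by
    have := CharP.cast_eq_zero F₈ 2
    exact_mod_cast this
  have hsq : ∀ x : F₈, x ^ 2 = 1 → x = 1 := by
    intro x hx
    have h3 : (x - 1) ^ 2 = 0 := by linear_combination hx - (x - 1) * h2
    exact sub_eq_zero.1 (pow_eq_zero_iff (two_ne_zero)|>.1 h3)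
  have hdet : (φ.mapMatrix (m4 q1)).det = 1 := by
    have h3 : (φ.mapMatrix (m4 q1)).det ^ 65 = 1 := by
      rw [← det_pow, ← map_pow, h65, map_one, det_one]
    have hne : (φ.mapMatrix (m4 q1)).det ≠ 0 := by
      intro h0
      rw [h0, zero_pow (by norm_num)] at h3
      exact zero_ne_one h3
    have h7 := FiniteField.pow_card_sub_one_eq_one _ hne
    rw [h8] at h7
    apply hsq
    have h4 : (φ.mapMatrix (m4 q1)).det ^ 65 = ((φ.mapMatrix (m4 q1)).det ^ 7) ^ 9 * (φ.mapMatrix (m4 q1)).det ^ 2 := by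
      rw [← pow_mul, ← pow_add]
    rw [h3] at h4
    rw [show (7 : ℕ) = 8 - 1 from rfl, h7, one_pow, one_mul] at h4
    exact h4.symm
  have hdetj : (φ.mapMatrix (m4 j4)).det = 1 := by
    apply hsq
    rw [pow_two, ← det_mul, ← map_mul, f4_j, map_one, det_one]
  let g : SpecialLinearGroup (Fin 4) F₈ := ⟨φ.mapMatrix (m4 q1), hdet⟩
  let j : SpecialLinearGroup (Fin 4) F₈ := ⟨φ.mapMatrix (m4 j4), hdetj⟩
  have hgp : ∀ k : ℕ, ((g ^ k : SpecialLinearGroup (Fin 4) F₈) : Matrix (Fin 4) (Fin 4) F₈) =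
      φ.mapMatrix (m4 q1 ^ k) := by
    intro k
    rw [map_pow]
    exact Matrix.SpecialLinearGroup.coe_pow g k
  have hn : ∀ k N, m4 q1 ^ k = N → m4 j4 * N ≠ N * m4 j4 → j * g ^ k ≠ g ^ k * j := by
    intro k N hN hne h1
    apply hne
    apply hΦ
    rw [map_mul, map_mul, ← hN, ← hgp]
    exact congrArg Subtype.val h1
  refine ⟨QuotientGroup.mk g, order65 g j ?_ (hn 5 _ h5 f4_n5) (hn 13 _ h13 f4_n13)⟩
  apply Subtype.ext
  rw [hgp, h65, map_one]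
  rfl

end Cfsg.Agent.H17E7
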