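import Cfsg.Prelude.Def_Classical
import Cfsg.Agent.H17E7.C1

set_option autoImplicit false
set_option linter.unusedVariables false

/-! An element of order 65 in PSU(4,8) (helper69, for helper17's S5769). -/

namespace Cfsg.Agent.H17E7.C3

open Matrix
open scoped Kronecker

section

variable {F : Type*} [Field F]

/-- the bar automorphism -/
noncomputable def sg (F : Type*) [Field F] [CharP F 2] : F →+* F := iterateFrobenius F 2 3

lemma sg_apply [CharP F 2] (x : F) : sg F x = x ^ 8 := by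
  simp [sg, iterateFrobenius_def]

lemma herm_of [CharP F 2] (M : Matrix (Fin 4) (Fin 4) F) (h : Mᵀ * M.map (sg F) = 1) (u v : Fin 4 → F) :
    hermForm 4 F 8 (M *ᵥ u) (M *ᵥ v) = hermForm 4 F 8 u v := by
  have e1 : ∀ u v : Fin 4 → F, hermForm 4 F 8 u v = u ⬝ᵥ (fun i => sg F (v i)) := by
    intro u v
    simp [hermForm, dotProduct, sg_apply]
  have e2 : (fun i => sg F ((M *ᵥ v) i)) = (M.map (sg F)) *ᵥ (fun i => sg F (v i)) := by
    funext i
    simp [Matrix.mulVec, dotProduct, map_sum, map_mul]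
  rw [e1, e1, e2, ← Matrix.vecMul_transpose, ← Matrix.dotProduct_mulVec, Matrix.mulVec_mulVec, h, Matrix.one_mulVec]

/-- the element of SL(4) -/
def mkSU [CharP F 2] (M : Matrix (Fin 4) (Fin 4) F) (hd : M.det = 1) (h : Mᵀ * M.map (sg F) = 1) :
    SU 4 F 8 :=
  ⟨⟨M, hd⟩, fun u v => herm_of M h u v⟩

lemma mkSU_coe [CharP F 2] (M : Matrix (Fin 4) (Fin 4) F) (hd : M.det = 1) (h : Mᵀ * M.map (sg F) = 1) :
    (((mkSU M hd h : SU 4 F 8) : Matrix.SpecialLinearGroup (Fin 4) F) : Matrix (Fin 4) (Fin 4) F) = M := rfl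

/-- the two idempotents -/
def E1 (w : F) : Matrix (Fin 2) (Fin 2) F := !![w ^ 2, w; w ^ 2, w]
def E2 (w : F) : Matrix (Fin 2) (Fin 2) F := !![w, w; w ^ 2, w ^ 2]

def ph (w : F) (X Y : Matrix (Fin 2) (Fin 2) F) : Matrix (Fin 4) (Fin 4) F :=
  (E1 w ⊗ₖ X + E2 w ⊗ₖ Y).submatrix (finProdFinEquiv (m := 2) (n := 2)).symm (finProdFinEquiv (m := 2) (n := 2)).symm

variable {w : F}

lemma two [CharP F 2] : (2 : F) = 0 := CharTwo.two_eq_zero

lemma E11 [CharP F 2] (hw : w ^ 2 + w + 1 = 0) : E1 w * E1 w = E1 w := by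
  have h2 : (2 : F) = 0 := two
  ext i j
  fin_cases i <;> fin_cases j <;> simp [E1, Matrix.mul_apply, Fin.sum_univ_two] <;> grind

lemma E22 [CharP F 2] (hw : w ^ 2 + w + 1 = 0) : E2 w * E2 w = E2 w := by
  have h2 : (2 : F) = 0 := two
  ext i j
  fin_cases i <;> fin_cases j <;> simp [E2, Matrix.mul_apply, Fin.sum_univ_two] <;> grind

lemma E12 [CharP F 2] (hw : w ^ 2 + w + 1 = 0) : E1 w * E2 w = 0 := by
  have h2 : (2 : F) = 0 := two
  ext i j
  fin_cases i <;> fin_cases j <;> simp [E1, E2, Matrix.mul_apply, Fin.sum_univ_two] <;> grind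

lemma E21 [CharP F 2] (hw : w ^ 2 + w + 1 = 0) : E2 w * E1 w = 0 := by
  have h2 : (2 : F) = 0 := two
  ext i j
  fin_cases i <;> fin_cases j <;> simp [E1, E2, Matrix.mul_apply, Fin.sum_univ_two] <;> grind

lemma E1add [CharP F 2] (hw : w ^ 2 + w + 1 = 0) : E1 w + E2 w = 1 := by
  have h2 : (2 : F) = 0 := two
  ext i j
  fin_cases i <;> fin_cases j <;> simp [E1, E2] <;> grind

lemma E1star [CharP F 2] (hw : w ^ 2 + w + 1 = 0) : (E1 w)ᵀ = (E2 w).map (sg F) := by
  have h2 : (2 : F) = 0 := two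
  have h8 : w ^ 8 = w ^ 2 := by grind
  have h8' : (w ^ 2) ^ 8 = w := by grind
  ext i j
  fin_cases i <;> fin_cases j <;> simp [E1, E2, sg_apply, h8, h8', -map_pow]

lemma E2star [CharP F 2] (hw : w ^ 2 + w + 1 = 0) : (E2 w)ᵀ = (E1 w).map (sg F) := by
  have h2 : (2 : F) = 0 := two
  have h8 : w ^ 8 = w ^ 2 := by grind
  have h8' : (w ^ 2) ^ 8 = w := by grind
  ext i j
  fin_cases i <;> fin_cases j <;> simp [E1, E2, sg_apply, h8, h8', -map_pow]

lemma ph_mul [CharP F 2] (hw : w ^ 2 + w + 1 = 0) (X Y X' Y' : Matrix (Fin 2) (Fin 2) F) :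
    ph w X Y * ph w X' Y' = ph w (X * X') (Y * Y') := by
  unfold ph
  rw [Matrix.submatrix_mul_equiv]
  congr 1
  rw [add_mul, mul_add, mul_add, ← Matrix.mul_kronecker_mul, ← Matrix.mul_kronecker_mul, ← Matrix.mul_kronecker_mul,
    ← Matrix.mul_kronecker_mul, E11 hw, E22 hw, E12 hw, E21 hw, Matrix.zero_kronecker, Matrix.zero_kronecker, add_zero,
    zero_add]

lemma ph_one [CharP F 2] (hw : w ^ 2 + w + 1 = 0) : ph w 1 1 = 1 := by
  unfold ph
  rw [← Matrix.add_kronecker, E1add hw, Matrix.one_kronecker_one, Matrix.submatrix_one_equiv]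

lemma ph_pow [CharP F 2] (hw : w ^ 2 + w + 1 = 0) (X Y : Matrix (Fin 2) (Fin 2) F) (k : ℕ) :
    ph w X Y ^ k = ph w (X ^ k) (Y ^ k) := by
  induction k with
  | zero => simp [ph_one hw]
  | succ k ih => rw [pow_succ, ih, ph_mul hw, ← pow_succ, ← pow_succ]

lemma ph_unitary [CharP F 2] (hw : w ^ 2 + w + 1 = 0) {X Y : Matrix (Fin 2) (Fin 2) F}
    (h1 : Xᵀ * Y.map (sg F) = 1) (h2 : Yᵀ * X.map (sg F) = 1) : (ph w X Y)ᵀ * (ph w X Y).map (sg F) = 1 := by
  have f11 : (E1 w).map (sg F) * (E1 w).map (sg F) = (E1 w).map (sg F) := by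
    rw [← Matrix.map_mul, E11 hw]
  have f22 : (E2 w).map (sg F) * (E2 w).map (sg F) = (E2 w).map (sg F) := by
    rw [← Matrix.map_mul, E22 hw]
  have f12 : (E1 w).map (sg F) * (E2 w).map (sg F) = 0 := by
    rw [← Matrix.map_mul, E12 hw, Matrix.map_zero _ (map_zero _)]
  have f21 : (E2 w).map (sg F) * (E1 w).map (sg F) = 0 := by
    rw [← Matrix.map_mul, E21 hw, Matrix.map_zero _ (map_zero _)]
  have fadd : (E1 w).map (sg F) + (E2 w).map (sg F) = 1 := by
    have : (E1 w + E2 w).map (sg F) = (1 : Matrix (Fin 2) (Fin 2) F).map (sg F) := by rw [E1add hw]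
    rw [Matrix.map_one _ (map_zero _) (map_one _), Matrix.map_add _ (map_add _)] at this
    exact this
  have e1 : (ph w X Y)ᵀ = ((E2 w).map (sg F) ⊗ₖ Xᵀ + (E1 w).map (sg F) ⊗ₖ Yᵀ).submatrix
      (finProdFinEquiv (m := 2) (n := 2)).symm (finProdFinEquiv (m := 2) (n := 2)).symm := by
    unfold ph
    rw [← E1star hw, ← E2star hw]
    ext i j
    simp [Matrix.kroneckerMap_apply]
  have e2 : (ph w X Y).map (sg F) = ((E1 w).map (sg F) ⊗ₖ X.map (sg F) + (E2 w).map (sg F) ⊗ₖ Y.map (sg F)).submatrix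
      (finProdFinEquiv (m := 2) (n := 2)).symm (finProdFinEquiv (m := 2) (n := 2)).symm := by
    unfold ph
    ext i j
    simp [Matrix.kroneckerMap_apply]
  rw [e1, e2, Matrix.submatrix_mul_equiv, add_mul, mul_add, mul_add, ← Matrix.mul_kronecker_mul,
    ← Matrix.mul_kronecker_mul, ← Matrix.mul_kronecker_mul, ← Matrix.mul_kronecker_mul, f11, f22, f12, f21, h1, h2,
    Matrix.zero_kronecker, Matrix.zero_kronecker, add_zero, zero_add, ← Matrix.add_kronecker, add_comm, fadd,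
    Matrix.one_kronecker_one, Matrix.submatrix_one_equiv]

lemma ph_inj [CharP F 2] (hw : w ^ 2 + w + 1 = 0) {X Y X' Y' : Matrix (Fin 2) (Fin 2) F} (h : ph w X Y = ph w X' Y') :
    X = X' := by
  have h2 : (2 : F) = 0 := two
  ext a b
  have e1 := congrFun (congrFun h (finProdFinEquiv (m := 2) (n := 2) (0, a))) (finProdFinEquiv (m := 2) (n := 2) (0, b))
  have e2 := congrFun (congrFun h (finProdFinEquiv (m := 2) (n := 2) (0, a))) (finProdFinEquiv (m := 2) (n := 2) (1, b))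
  simp only [ph, Matrix.submatrix_apply, Equiv.symm_apply_apply, Matrix.add_apply, Matrix.kroneckerMap_apply] at e1 e2
  simp [E1, E2] at e1 e2
  grind

/-- the center consists of scalars -/
lemma center_scalar [CharP F 2] (hw : w ^ 2 + w + 1 = 0) {z : SU 4 F 8} (hz : z ∈ Subgroup.center (SU 4 F 8)) :
    ∃ c : F, ((z : Matrix.SpecialLinearGroup (Fin 4) F) : Matrix (Fin 4) (Fin 4) F) = c • (1 : Matrix (Fin 4) (Fin 4) F) := by
  have h2 : (2 : F) = 0 := two
  have h8 : w ^ 8 = w ^ 2 := by grind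
  have h8' : (w ^ 2) ^ 8 = w := by grind
  have h3 : w * w ^ 2 = 1 := by grind
  have h3' : w ^ 2 * w = 1 := by grind
  have hne : w ≠ w ^ 2 := by intro h; apply one_ne_zero (α := F); grind
  have hne1 : w ≠ 1 := by intro h; apply one_ne_zero (α := F); grind
  have hne2 : w ^ 2 ≠ 1 := by intro h; apply one_ne_zero (α := F); grind
  set Z := ((z : Matrix.SpecialLinearGroup (Fin 4) F) : Matrix (Fin 4) (Fin 4) F) with hZ
  have hcomm : ∀ (M : Matrix (Fin 4) (Fin 4) F) (hd : M.det = 1) (h : Mᵀ * M.map (sg F) = 1), M * Z = Z * M := by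
    intro M hd h
    have := (Subgroup.mem_center_iff.1 hz) (mkSU M hd h)
    exact (congrArg (fun y : SU 4 F 8 => ((y : Matrix.SpecialLinearGroup (Fin 4) F) : Matrix (Fin 4) (Fin 4) F)) this)
  have c1 := hcomm (Matrix.diagonal ![w, w ^ 2, 1, 1]) (by
    rw [Matrix.det_diagonal]; simp [Fin.prod_univ_four, h3]) (by
    rw [Matrix.diagonal_transpose, Matrix.diagonal_map (map_zero _), Matrix.diagonal_mul_diagonal, ← Matrix.diagonal_one]
    congr 1
    funext i
    fin_cases i <;> simp [sg_apply, h8, h8', h3, h3', -map_pow])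
  have c2 := hcomm (Matrix.diagonal ![1, 1, w, w ^ 2]) (by
    rw [Matrix.det_diagonal]; simp [Fin.prod_univ_four, h3]) (by
    rw [Matrix.diagonal_transpose, Matrix.diagonal_map (map_zero _), Matrix.diagonal_mul_diagonal, ← Matrix.diagonal_one]
    congr 1
    funext i
    fin_cases i <;> simp [sg_apply, h8, h8', h3, h3', -map_pow])
  have c3 := hcomm !![0, 1, 0, 0; 0, 0, 1, 0; 0, 0, 0, 1; 1, 0, 0, 0] (by
    have hs : Fin.succAbove (1 : Fin 4) (2 : Fin 3) = 3 := by decide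
    simp [Matrix.det_succ_row_zero, Fin.sum_univ_succ, hs, CharTwo.neg_eq]) (by
    ext i j
    fin_cases i <;> fin_cases j <;> simp [Matrix.mul_apply, Fin.sum_univ_four])
  have d1 : ∀ i j : Fin 4, (![w, w ^ 2, 1, 1] : Fin 4 → F) i * Z i j = Z i j * (![w, w ^ 2, 1, 1] : Fin 4 → F) j := by
    intro i j
    have := congrFun (congrFun c1 i) j
    rwa [Matrix.diagonal_mul, Matrix.mul_diagonal] at this
  have d2 : ∀ i j : Fin 4, (![1, 1, w, w ^ 2] : Fin 4 → F) i * Z i j = Z i j * (![1, 1, w, w ^ 2] : Fin 4 → F) j := by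
    intro i j
    have := congrFun (congrFun c2 i) j
    rwa [Matrix.diagonal_mul, Matrix.mul_diagonal] at this
  have hoff : ∀ i j : Fin 4, i ≠ j → Z i j = 0 := by
    intro i j hij
    have a1 : ((![w, w ^ 2, 1, 1] : Fin 4 → F) i - (![w, w ^ 2, 1, 1] : Fin 4 → F) j) * Z i j = 0 := by
      rw [sub_mul, d1 i j]; ring
    have a2 : ((![1, 1, w, w ^ 2] : Fin 4 → F) i - (![1, 1, w, w ^ 2] : Fin 4 → F) j) * Z i j = 0 := by
      rw [sub_mul, d2 i j]; ring
    rcases mul_eq_zero.1 a1 with h | h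
    · rcases mul_eq_zero.1 a2 with h' | h'
      · exfalso
        fin_cases i <;> fin_cases j <;> simp [sub_eq_zero] at h h' hij <;> first
          | exact hne h | exact hne h.symm | exact hne1 h | exact hne1 h.symm | exact hne2 h | exact hne2 h.symm
          | exact hne h' | exact hne h'.symm | exact hne1 h' | exact hne1 h'.symm | exact hne2 h' | exact hne2 h'.symm
      · exact h'
    · exact h
  have g01 := congrFun (congrFun c3 0) 1
  have g12 := congrFun (congrFun c3 1) 2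
  have g23 := congrFun (congrFun c3 2) 3
  simp [Matrix.mul_apply, Fin.sum_univ_four] at g01 g12 g23
  refine ⟨Z 0 0, ?_⟩
  ext i j
  by_cases hij : i = j
  · subst hij
    fin_cases i <;> simp [g01, g12, g23]
  · rw [hoff i j hij]
    simp [hij]

/-- the pair -/
lemma det_one_of [Fintype F] (h64 : Fintype.card F = 64) {M : Matrix (Fin 4) (Fin 4) F} (h : M ^ 65 = 1) : M.det = 1 := by
  have h1 : M.det ^ 65 = 1 := by rw [← Matrix.det_pow, h, Matrix.det_one]
  have hne : M.det ≠ 0 := by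
    intro h0
    rw [h0] at h1
    simp at h1
  have h2 : M.det ^ 63 = 1 := by
    have := FiniteField.pow_card_sub_one_eq_one M.det hne
    rwa [h64] at this
  have h3 : M.det ^ 2 = 1 := by
    have : M.det ^ 65 = M.det ^ 63 * M.det ^ 2 := by rw [← pow_add]
    rw [this, h2, one_mul] at h1
    exact h1
  have h4 : M.det ^ 63 = (M.det ^ 2) ^ 31 * M.det := by rw [← pow_mul, ← pow_succ]
  rw [h4, h3, one_pow, one_mul] at h2
  exact h2

lemma exists_w [Fintype F] (h64 : Fintype.card F = 64) : ∃ w : F, w ^ 2 + w + 1 = 0 := by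
  classical
  have h1 : 3 ∣ Nat.card Fˣ := by
    rw [Nat.card_units, Nat.card_eq_fintype_card, h64]
    decide
  haveI : Fact (Nat.Prime 3) := ⟨Nat.prime_three⟩
  obtain ⟨u, hu⟩ := exists_prime_orderOf_dvd_card' (G := Fˣ) 3 h1
  refine ⟨(u : F), ?_⟩
  have h3 : (u : F) ^ 3 = 1 := by
    rw [← Units.val_pow_eq_pow_val, ← hu, pow_orderOf_eq_one, Units.val_one]
  have hne : (u : F) - 1 ≠ 0 := by
    intro h
    have : u = 1 := Units.ext (by rw [Units.val_one]; exact sub_eq_zero.1 h)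
    rw [this, orderOf_one] at hu
    omega
  have : ((u : F) - 1) * ((u : F) ^ 2 + u + 1) = 0 := by
    have : ((u : F) - 1) * ((u : F) ^ 2 + u + 1) = (u : F) ^ 3 - 1 := by ring
    rw [this, h3, sub_self]
  exact (mul_eq_zero.1 this).resolve_left hne

theorem psu4_of [Fintype F] (h64 : Fintype.card F = 64)
    (hA : ∃ t : F, (!![0, 1; 1, t] : Matrix (Fin 2) (Fin 2) F) ^ 65 = 1 ∧
      (!![0, 1; 1, t] : Matrix (Fin 2) (Fin 2) F) ^ 5 ≠ 1 ∧ (!![0, 1; 1, t] : Matrix (Fin 2) (Fin 2) F) ^ 13 ≠ 1) :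
    ∃ g : Cfsg.PSU 4 F 8, orderOf g = 65 := by
  classical
  haveI : Fact (Nat.Prime 2) := ⟨Nat.prime_two⟩
  haveI : CharP F 2 := charP_of_card_eq_prime_pow (f := 6) (by rw [h64]; norm_num)
  have h2 : (2 : F) = 0 := two
  obtain ⟨w, hw⟩ := exists_w h64
  obtain ⟨t, ht65, ht5, ht13⟩ := hA
  have h64' : ∀ x : F, (x ^ 8) ^ 8 = x := by
    intro x
    rw [← pow_mul]
    have := FiniteField.pow_card x
    rwa [h64] at this
  set A : Matrix (Fin 2) (Fin 2) F := !![0, 1; 1, t] with hAdef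
  set B : Matrix (Fin 2) (Fin 2) F := !![t ^ 8, 1; 1, 0] with hBdef
  have htt : ∀ x : F, x + x = 0 := fun x => CharTwo.add_self_eq_zero x
  have h1 : Aᵀ * B.map (sg F) = 1 := by
    ext i j
    fin_cases i <;> fin_cases j <;> simp [A, B, Matrix.mul_apply, Fin.sum_univ_two, sg_apply, h64', htt, -map_pow]
  have h1' : Bᵀ * A.map (sg F) = 1 := by
    ext i j
    fin_cases i <;> fin_cases j <;> simp [A, B, Matrix.mul_apply, Fin.sum_univ_two, sg_apply, h64', htt, -map_pow]
  have hBs : Bᵀ = B := by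
    ext i j
    fin_cases i <;> fin_cases j <;> simp [B]
  have hA65 : (A.map (sg F)) ^ 65 = 1 := by
    have := map_pow (RingHom.mapMatrix (m := Fin 2) (sg F)) A 65
    rw [RingHom.mapMatrix_apply, RingHom.mapMatrix_apply] at this
    rw [← this, ht65, Matrix.map_one _ (map_zero _) (map_one _)]
  have hB65 : B ^ 65 = 1 := by
    rw [hBs] at h1'
    have h1'' : A.map (sg F) * B = 1 := mul_eq_one_comm.1 h1'
    have hc : Commute B (A.map (sg F)) := by
      show B * A.map (sg F) = A.map (sg F) * B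
      rw [h1', h1'']
    have := hc.mul_pow 65
    rw [h1', one_pow, hA65, mul_one] at this
    exact this.symm
  have hM65 : (ph w A B) ^ 65 = 1 := by rw [ph_pow hw, ht65, hB65, ph_one hw]
  have hU := ph_unitary hw h1 h1'
  set g : SU 4 F 8 := mkSU (ph w A B) (det_one_of h64 hM65) hU with hg
  have hgc : ∀ k : ℕ, (((g ^ k : SU 4 F 8) : Matrix.SpecialLinearGroup (Fin 4) F) : Matrix (Fin 4) (Fin 4) F) =
      (ph w A B) ^ k := by
    intro k
    rw [Subgroup.coe_pow, Matrix.SpecialLinearGroup.coe_pow]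
    rfl
  have hnc : ∀ k m : ℕ, k * m = 65 → A ^ k ≠ 1 → Nat.Coprime m 63 → (QuotientGroup.mk' (Subgroup.center (SU 4 F 8)) g) ^ k ≠ 1 := by
    intro k m hkm hk hm h
    rw [← map_pow] at h
    have h3 : g ^ k ∈ Subgroup.center (SU 4 F 8) := (QuotientGroup.eq_one_iff _).1 h
    obtain ⟨c, hc⟩ := center_scalar hw h3
    rw [hgc] at hc
    have hcm : c ^ m = 1 := by
      have h5 : (ph w A B ^ k) ^ m = 1 := by rw [← pow_mul, hkm, hM65]
      rw [hc, smul_pow, one_pow] at h5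
      have := congrFun (congrFun h5 0) 0
      simpa using this
    have hm0 : m ≠ 0 := by
      rintro rfl
      omega
    have hc0 : c ≠ 0 := by
      rintro rfl
      rw [zero_pow hm0] at hcm
      exact zero_ne_one hcm
    have hc63 : c ^ 63 = 1 := by
      have := FiniteField.pow_card_sub_one_eq_one c hc0
      rwa [h64] at this
    have hc1 : c = 1 := by
      have hd1 : orderOf c ∣ m := orderOf_dvd_of_pow_eq_one hcm
      have hd2 : orderOf c ∣ 63 := orderOf_dvd_of_pow_eq_one hc63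
      have := Nat.dvd_gcd hd1 hd2
      rw [Nat.Coprime.gcd_eq_one hm] at this
      exact orderOf_eq_one_iff.1 (Nat.dvd_one.1 this)
    rw [hc1, one_smul, ph_pow hw, ← ph_one hw] at hc
    exact hk (ph_inj hw hc)
  refine ⟨QuotientGroup.mk' (Subgroup.center (SU 4 F 8)) g, ?_⟩
  refine orderOf_eq_of_pow_and_pow_div_prime (by norm_num) ?_ ?_
  · rw [← map_pow]
    have : g ^ 65 = 1 := by
      apply Subtype.ext
      apply Subtype.ext
      rw [hgc, hM65]
      rfl
    rw [this, map_one]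
  · intro p hp hpd
    have h65 : (65 : ℕ) = 5 * 13 := by norm_num
    rw [h65] at hpd
    rcases (Nat.Prime.dvd_mul hp).1 hpd with h | h
    · have h5 : p = 5 := (Nat.prime_dvd_prime_iff_eq hp (by norm_num)).1 h
      subst h5
      exact hnc 13 5 (by norm_num) ht13 (by decide)
    · have h5 : p = 13 := (Nat.prime_dvd_prime_iff_eq hp (by norm_num)).1 h
      subst h5
      exact hnc 5 13 (by norm_num) ht5 (by decide)

end

end Cfsg.Agent.H17E7.C3

namespace Cfsg.Agent.H17E7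

/-- `PSU(4,8)` has an element of order 65 -/
theorem psu4 {F₆₄ : Type*} [Field F₆₄] [Fintype F₆₄] (h64 : Fintype.card F₆₄ = 64) :
    ∃ g : Cfsg.PSU 4 F₆₄ 8, orderOf g = 65 :=
  C3.psu4_of h64 (exists_A h64)

end Cfsg.Agent.H17E7
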