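import Cfsg.Agent.H17E7.Main

set_option autoImplicit false

namespace Cfsg.Agent.H17E7

/-- subgroups of `E7(2)` have no elements of order 65 -/
theorem isEmpty_of_order65 (H : Subgroup ↥(Cfsg.Lie.chevE7.group (ZMod 2))) {X : Type*} [Group X] (hX : ∃ g : X, orderOf g = 65) :
    IsEmpty (↥H ≃* X) := by
  obtain ⟨g, hg⟩ := hX
  refine ⟨fun e => ?_⟩
  have h1 : orderOf (((e.symm g : ↥H) : ↥(Cfsg.Lie.chevE7.group (ZMod 2)))) = 65 := by
    rw [Subgroup.orderOf_coe, MulEquiv.orderOf_eq, hg]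
  exact no65 (by rw [ZMod.card]) _ h1

end Cfsg.Agent.H17E7
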