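import Mathlib.GroupTheory.Sylow
import Mathlib.Tactic

set_option autoImplicit false

/-!
# A Frattini argument (helper17)
-/

namespace Cfsg.Agent.H17E7

theorem frat {W : Type*} [Group W] [Finite W] (h25 : ¬ 25 ∣ Nat.card W) (S : Subgroup W) {u w : W} (hu : u ∈ S)
    (ho : orderOf u = 5) (hw : ∀ s ∈ S, w * s * w⁻¹ ∈ S) : ∃ s ∈ S, ∃ k : ℕ, (s * w) * u = u ^ k * (s * w) := by
  haveI : Fact (Nat.Prime 5) := ⟨by norm_num⟩
  have h5 : 5 ∣ Nat.card ↥S := by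
    rw [← ho, ← Subgroup.orderOf_mk u hu]
    exact orderOf_dvd_natCard _
  have h25' : ¬ 25 ∣ Nat.card ↥S := fun h => h25 (h.trans (Subgroup.card_subgroup_dvd_card S))
  have hfac : (Nat.card ↥S).factorization 5 = 1 := by
    have h1 : 1 ≤ (Nat.card ↥S).factorization 5 := by
      rw [← Nat.Prime.dvd_iff_one_le_factorization (by norm_num) Nat.card_pos.ne']
      exact h5
    have h2 : ¬ 2 ≤ (Nat.card ↥S).factorization 5 := by
      rw [← Nat.Prime.pow_dvd_iff_le_factorization (by norm_num) Nat.card_pos.ne']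
      norm_num
      exact h25'
    omega
  have key : ∀ x : ↥S, orderOf x = 5 → Nat.card ↥(Subgroup.zpowers x) = 5 ^ (Nat.card ↥S).factorization 5 := by
    intro x hx
    rw [Nat.card_zpowers, hx, hfac, pow_one]
  have ho1 : orderOf (⟨u, hu⟩ : ↥S) = 5 := by rw [Subgroup.orderOf_mk, ho]
  have ho2 : orderOf (⟨w * u * w⁻¹, hw u hu⟩ : ↥S) = 5 := by
    rw [Subgroup.orderOf_mk]
    have : w * u * w⁻¹ = MulAut.conj w u := rfl
    rw [this, MulEquiv.orderOf_eq, ho]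
  let P : Sylow 5 ↥S := Sylow.ofCard _ (key _ ho1)
  let Q : Sylow 5 ↥S := Sylow.ofCard _ (key _ ho2)
  obtain ⟨s, hs⟩ := MulAction.exists_smul_eq ↥S Q P
  have h1 : s * ⟨w * u * w⁻¹, hw u hu⟩ * s⁻¹ ∈ Subgroup.zpowers (⟨u, hu⟩ : ↥S) := by
    have h2 : s * ⟨w * u * w⁻¹, hw u hu⟩ * s⁻¹ ∈ ((s • Q : Sylow 5 ↥S) : Subgroup ↥S) := by
      rw [Sylow.coe_subgroup_smul]
      have h3 : s * ⟨w * u * w⁻¹, hw u hu⟩ * s⁻¹ = MulAut.conj s • (⟨w * u * w⁻¹, hw u hu⟩ : ↥S) := by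
        rw [MulAut.smul_def, MulAut.conj_apply]
      rw [h3]
      exact Subgroup.smul_mem_pointwise_smul _ _ _ (Subgroup.mem_zpowers _)
    rw [hs] at h2
    exact h2
  rw [← mem_powers_iff_mem_zpowers, Submonoid.mem_powers_iff] at h1
  obtain ⟨k, hk⟩ := h1
  refine ⟨s, s.2, k, ?_⟩
  have h2 := congrArg (Subtype.val) hk
  have h3 : u ^ k = (s : W) * (w * u * w⁻¹) * (s : W)⁻¹ := by simpa using h2
  rw [h3]; group

end Cfsg.Agent.H17E7
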