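import Cfsg.Agent.ChevPG.Frame2
import Cfsg.Agent.ChevF.TorRows

set_option autoImplicit false

/-!
# Torus index in centralizers of torus elements (helper17)
-/

namespace Cfsg.Agent.H17E7

open Cfsg.Lie Cfsg.Agent.Chev Cfsg.Agent.ChevGrp Cfsg.Agent.ChevF Cfsg.Agent.ChevPG Matrix

variable {D : ChevalleyDatum} (E : DData D) {K : Type*} [Field K] [Fintype K]

include E in
/-- regular families of `r`-torsion elements of the diagonal subgroup -/
theorem exists_tors (hD : D ∈ data) (hTK : ∀ χ : ℕ → Kˣ, ChevU.torHom D K χ ∈ D.diagonalSubgroup K) {r : ℕ} [hr : Fact r.Prime]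
    (hr1 : r ∣ Fintype.card K - 1) (s : Fin D.nroots) : ∃ z ∈ D.diagonalSubgroup K, z ^ r = 1 ∧ ev z s ≠ 1 := by
  have G := good_of_mem hD
  obtain ⟨u, hu, i, hui⟩ := E.rp.wsys.exists_conj_p s
  have hcard : r ∣ Nat.card Kˣ := by rw [Nat.card_units, Nat.card_eq_fintype_card]; exact hr1
  obtain ⟨c, hc⟩ := exists_prime_orderOf_dvd_card' r hcard
  have hc1 : c ≠ 1 := by
    rintro rfl
    rw [orderOf_one] at hc
    exact hr.out.one_lt.ne hc
  have hcr : c ^ r = 1 := by rw [← hc]; exact pow_orderOf_eq_one c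
  set χ : ℕ → Kˣ := fun j => if j = (i : ℕ) then c else 1 with hχ
  have hχr : χ ^ r = 1 := by
    funext j
    rw [Pi.pow_apply, Pi.one_apply, hχ]
    by_cases h : j = (i : ℕ)
    · simp only [h, if_true]; exact hcr
    · simp only [h, if_false, one_pow]
  set z := ChevU.torHom D K χ with hz_def
  have hz : z ∈ D.diagonalSubgroup K := hTK χ
  have hzr : z ^ r = 1 := by rw [hz_def, ← map_pow, hχr, map_one]
  have hev : ev z (E.rp.wsys.p i) = (c : K) := by
    rw [hz_def, ev_torHom, p_val]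
    have h3 : chr D χ (D.simple i) = χ i := by
      unfold chr
      rw [Finset.prod_eq_single (i : ℕ)]
      · rw [(good_of_mem hD).vec_simple i i.2 i i.2, if_pos rfl, _root_.zpow_one]
      · intro k hk hkj
        rw [(good_of_mem hD).vec_simple i i.2 k (Finset.mem_range.mp hk), if_neg (Ne.symm hkj), _root_.zpow_zero]
      · intro h; exact absurd (Finset.mem_range.mpr i.2) h
    rw [h3, hχ]
    simp
  obtain ⟨n, hn, hact⟩ := RGrp.exists_act_of_mem (R := chev E (good_of_mem hD) K) hu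
  refine ⟨n * z * n⁻¹, RGrp.N_conj_H hn hz, ?_, ?_⟩
  · rw [conj_pow, hzr]; group
  · have h5 := N_conj_ev E hD hn hact hz (E.rp.wsys.p i)
    rw [hui, hev] at h5
    rw [h5]
    intro h6
    exact hc1 (Units.ext h6)

theorem idx (hD : D ∈ data) (hTK : ∀ χ : ℕ → Kˣ, ChevU.torHom D K χ ∈ D.diagonalSubgroup K) {r : ℕ} [hr : Fact r.Prime]
    (hr1 : r ∣ Fintype.card K - 1) {t : GL D.Idx K} (ht : t ∈ D.diagonalSubgroup K)
    (h : r ∣ ((D.diagonalSubgroup K).subgroupOf (D.group K ⊓ Subgroup.centralizer {t})).index) :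
    ∃ u ∈ E.rp.wsys.W, orderOf u = r ∧ ∀ s, ev t (u s) = ev t s := by
  classical
  have G := good_of_mem hD
  haveI : Finite (GL D.Idx K) := inferInstance
  set R := chev E (good_of_mem hD) K with hR
  set C := D.group K ⊓ Subgroup.centralizer {t} with hC
  set T' := (D.diagonalSubgroup K).subgroupOf C with hT'
  have hTG : D.diagonalSubgroup K ≤ D.group K := H_le_group E (good_of_mem hD)
  have hTC : D.diagonalSubgroup K ≤ C := by
    refine le_inf hTG ?_
    intro w hw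
    rw [Subgroup.mem_centralizer_iff]
    rintro _ rfl
    exact diag_comm hD ht hw
  -- the torsion subgroup
  let Z : Subgroup ↥C :=
    { carrier := {z | (z : GL D.Idx K) ∈ D.diagonalSubgroup K ∧ z ^ r = 1}
      one_mem' := ⟨one_mem _, one_pow _⟩
      mul_mem' := by
        rintro a b ⟨ha, ha'⟩ ⟨hb, hb'⟩
        refine ⟨mul_mem ha hb, ?_⟩
        have : Commute a b := Subtype.ext (diag_comm hD ha hb)
        rw [this.mul_pow, ha', hb', mul_one]
      inv_mem' := by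
        rintro a ⟨ha, ha'⟩
        refine ⟨inv_mem ha, ?_⟩
        rw [inv_pow, ha', inv_one] }
  have hZp : IsPGroup r ↥Z := by
    rintro ⟨x, hx⟩
    exact ⟨1, Subtype.ext (by simpa using hx.2)⟩
  have hmod := hZp.card_modEq_card_fixedPoints (↥C ⧸ T')
  -- fixed points
  have hfix : ∀ g : ↥C, (g : ↥C ⧸ T') ∈ MulAction.fixedPoints ↥Z (↥C ⧸ T') ↔ (g : GL D.Idx K) ∈ R.N := by
    intro g
    constructor
    · intro hg
      have h1 : ∀ z ∈ D.diagonalSubgroup K, z ^ r = 1 → (g : GL D.Idx K)⁻¹ * z * (g : GL D.Idx K) ∈ D.diagonalSubgroup K := by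
        intro z hz hzr
        have h3 := hg ⟨⟨z, hTC hz⟩, ⟨hz, Subtype.ext (by simpa using hzr)⟩⟩
        have h4 : ((⟨z, hTC hz⟩ * g : ↥C) : ↥C ⧸ T') = (g : ↥C ⧸ T') := h3
        rw [eq_comm, QuotientGroup.eq, Subgroup.mem_subgroupOf] at h4
        have : (g : GL D.Idx K)⁻¹ * z * (g : GL D.Idx K) = ((g⁻¹ * (⟨z, hTC hz⟩ * g) : ↥C) : GL D.Idx K) := by
          simp [mul_assoc]
        rw [this]; exact h4
      obtain ⟨b, hb, n, hn, x, hx, e, h2⟩ := fusion E hD (inv_mem g.2.1)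
      have h3 : ∀ z ∈ D.diagonalSubgroup K, z ^ r = 1 →
          n * z * n⁻¹ = (g : GL D.Idx K)⁻¹ * z * ((g : GL D.Idx K)⁻¹)⁻¹ ∧ x * z = z * x ∧ b * (n * z * n⁻¹) = (n * z * n⁻¹) * b := by
        intro z hz hzr
        refine h2 z hz ?_
        rw [inv_inv]
        exact h1 z hz hzr
      have hx1 : x = 1 := by
        apply cent_U' hD hx
        intro s
        obtain ⟨z, hz, hzr, hzs⟩ := exists_tors E hD hTK hr1 s
        exact ⟨z, hz, hzs, (h3 z hz hzr).2.1⟩
      have hb1 : b = 1 := by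
        apply cent_U' hD hb
        intro s
        obtain ⟨z, hz, hzr, hzs⟩ := exists_tors E hD hTK hr1 s
        have h5 := (h3 (n⁻¹ * z * n) (RGrp.N_conj_H' hn hz) (by
          have := conj_pow (i := r) (a := n⁻¹) (b := z)
          rw [inv_inv] at this
          rw [this, hzr]; group)).2.2
        have h6 : n * (n⁻¹ * z * n) * n⁻¹ = z := by group
        rw [h6] at h5
        exact ⟨z, hz, hzs, h5⟩
      rw [hx1, hb1, mul_one, one_mul] at e
      have : (g : GL D.Idx K) = n⁻¹ := by rw [← e, inv_inv]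
      rw [this]
      exact inv_mem hn
    · intro hg
      rintro ⟨z, hz⟩
      show ((z * g : ↥C) : ↥C ⧸ T') = (g : ↥C ⧸ T')
      rw [eq_comm, QuotientGroup.eq, Subgroup.mem_subgroupOf]
      have : ((g⁻¹ * (z * g) : ↥C) : GL D.Idx K) = (g : GL D.Idx K)⁻¹ * (z : GL D.Idx K) * (g : GL D.Idx K) := by
        simp [mul_assoc]
      rw [this]
      exact RGrp.N_conj_H' hg hz.1
  -- the group `N ∩ C`
  let NC : Subgroup ↥R.N := C.subgroupOf R.N
  let φ : ↥NC →* Equiv.Perm (Fin D.nroots) := R.nuHom.comp NC.subtype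
  have hφ : ∀ n : ↥NC, R.Act ((n : ↥R.N) : GL D.Idx K) (φ n) := fun n => RGrp.act_nu (R := R) (n : ↥R.N)
  have hker : ∀ n : ↥NC, φ n = 1 ↔ ((n : ↥R.N) : GL D.Idx K) ∈ D.diagonalSubgroup K := by
    intro n
    constructor
    · intro h1
      have h2 := hφ n
      rw [h1] at h2
      exact RGrp.mem_H_of_act_one (n : ↥R.N).2 h2
    · intro h1
      exact (hφ n).unique (RGrp.act_H h1)
  -- the map
  let f : ↥NC → MulAction.fixedPoints ↥Z (↥C ⧸ T') := fun n =>
    ⟨((⟨((n : ↥R.N) : GL D.Idx K), n.2⟩ : ↥C) : ↥C ⧸ T'), (hfix _).2 (n : ↥R.N).2⟩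
  have hf : ∀ m n : ↥NC, f m = f n ↔ φ m = φ n := by
    intro m n
    have h1 : f m = f n ↔ ((m : ↥R.N) : GL D.Idx K)⁻¹ * ((n : ↥R.N) : GL D.Idx K) ∈ D.diagonalSubgroup K := by
      show (⟨_, _⟩ : MulAction.fixedPoints ↥Z (↥C ⧸ T')) = ⟨_, _⟩ ↔ _
      rw [Subtype.mk_eq_mk, QuotientGroup.eq, Subgroup.mem_subgroupOf]
      rfl
    rw [h1]
    have h2 := hker (m⁻¹ * n)
    rw [map_mul, map_inv, inv_mul_eq_one] at h2
    rw [h2]
    rfl
  have hfs : Function.Surjective f := by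
    rintro ⟨y, hy⟩
    induction y using QuotientGroup.induction_on with
    | H g =>
      have h1 := (hfix g).1 hy
      exact ⟨⟨⟨(g : GL D.Idx K), h1⟩, g.2⟩, rfl⟩
  have hcard : Nat.card (MulAction.fixedPoints ↥Z (↥C ⧸ T')) = Nat.card ↥φ.range := by
    let e : ↥φ.range → MulAction.fixedPoints ↥Z (↥C ⧸ T') := fun y => f (MonoidHom.mem_range.1 y.2).choose
    have he : ∀ y : ↥φ.range, φ (MonoidHom.mem_range.1 y.2).choose = (y : Equiv.Perm (Fin D.nroots)) := fun y => (MonoidHom.mem_range.1 y.2).choose_spec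
    symm
    apply Nat.card_eq_of_bijective e
    constructor
    · intro a b hab
      have h1 := (hf _ _).1 hab
      rw [he a, he b] at h1
      exact Subtype.ext h1
    · intro y
      obtain ⟨n, rfl⟩ := hfs y
      refine ⟨⟨φ n, n, rfl⟩, ?_⟩
      exact (hf _ _).2 (he ⟨φ n, n, rfl⟩)
  have hdiv : r ∣ Nat.card ↥φ.range := by
    rw [← hcard]
    have h1 : Nat.card (↥C ⧸ T') = T'.index := rfl
    rw [h1] at hmod
    exact (Nat.ModEq.dvd_iff hmod (dvd_refl r)).1 h
  obtain ⟨⟨u, hu0⟩, hu⟩ := exists_prime_orderOf_dvd_card' r hdiv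
  obtain ⟨n, hn⟩ := MonoidHom.mem_range.1 hu0
  have hact := hφ n
  rw [hn] at hact
  refine ⟨u, hact.mem, ?_, ?_⟩
  · rw [← hu, ← Subgroup.orderOf_coe]
  · intro s
    have h1 := N_conj_ev E hD (n : ↥R.N).2 hact ht s
    have h2 := (Subgroup.mem_centralizer_iff.1 (Subgroup.mem_inf.1 n.2).2) t rfl
    have h3 : ((n : ↥R.N) : GL D.Idx K) * t * ((n : ↥R.N) : GL D.Idx K)⁻¹ = t := by
      have h4 : t * ((n : ↥R.N) : GL D.Idx K) = ((n : ↥R.N) : GL D.Idx K) * t := h2
      rw [← h4]; group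
    rw [h3] at h1
    exact h1

end Cfsg.Agent.H17E7
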