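import Cfsg.Agent.H17E7.W1b
import Cfsg.Agent.H14.W1b

set_option autoImplicit false
set_option maxRecDepth 100000

/-!
No element of the Weyl group of type E7 has a characteristic polynomial divisible by the cyclotomic polynomials 12 and 4.
-/

namespace Cfsg.Agent.H17E7

open Cfsg.Lie Cfsg.Agent.Chev Cfsg.Agent.ChevGrp Cfsg.Agent.ChevF Matrix Polynomial

section

variable (E : DData chevE7) {u : Equiv.Perm (Fin chevE7.nroots)} (hu : u ∈ E.rp.wsys.W)

include hu in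
theorem wm7_pw (k : ℕ) : wm7 E (u ^ k) = wm7 E u ^ k := wm_pow E (good_of_mem hE7) hu k

include hu in
theorem u12 (h : wm7 E u ^ 12 = 1) : u ^ 12 = 1 := by
  apply wm_inj E (good_of_mem hE7) (pow_mem hu 12) (one_mem _)
  have h1 := wm7_pw E hu 12
  rw [h, ← wm7_one E] at h1
  exact h1

include hu in
theorem fix_pow {k : ℕ} {s : Fin chevE7.nroots} (h : (u ^ k) s = s) : wm7 E u ^ k *ᵥ rv7 s = rv7 s := by
  have h1 := rv7_W E (pow_mem hu k) s
  rw [wm7_pw E hu, h] at h1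
  exact h1.symm

include hu in
theorem inv4 {s : Fin chevE7.nroots} (hβ : wm7 E u ^ 4 *ᵥ rv7 s = rv7 s) (t : Fin chevE7.nroots) :
    rv7 ((u ^ 4) t) ⬝ᵥ (CE7 *ᵥ rv7 s) = rv7 t ⬝ᵥ (CE7 *ᵥ rv7 s) := by
  have h1 : rv7 ((u ^ 4) t) = wm7 E (u ^ 4) *ᵥ rv7 t := rv7_W E (pow_mem hu 4) t
  have h2 := dot_inv (wm7_C E (pow_mem hu 4)) (rv7 t) (rv7 s)
  rw [wm7_pw E hu, hβ] at h2
  rw [h1, wm7_pw E hu]
  exact h2

end

/-- a permutation of order dividing twelve fixing the fibre has a fourth power with a fixed point there -/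
theorem exists_t {u : Equiv.Perm (Fin 126)} (h12 : u ^ 12 = 1) {s : Fin 126} (hinv : ∀ t, fm ((u ^ 4) t) s = fm t s) :
    ∃ t : Fin 126, fm t s = 1 ∧ (u ^ 4) t = t := by
  classical
  let σ : Equiv.Perm {t : Fin 126 // fm t s = 1} := Equiv.Perm.subtypePerm (u ^ 4) (fun t => by rw [hinv t])
  have hσ : σ ^ 3 ^ 1 = 1 := by
    refine Equiv.ext fun t => Subtype.ext ?_
    have h1 : (u ^ 4 * u ^ 4 * u ^ 4) = u ^ 12 := by rw [← pow_add, ← pow_add]
    have h2 : (u ^ 4 * u ^ 4 * u ^ 4) (t : Fin 126) = (t : Fin 126) := by rw [h1, h12]; rfl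
    have h3 : σ ^ 3 ^ 1 = σ * σ * σ := by rw [pow_one, pow_succ, pow_succ, pow_one]
    rw [h3]
    exact h2
  have hcard : ¬ 3 ∣ Fintype.card {t : Fin 126 // fm t s = 1} := by
    rw [Fintype.card_subtype, tab32 s]; norm_num
  have : Fact (Nat.Prime 3) := ⟨by norm_num⟩
  obtain ⟨t, ht⟩ := Equiv.Perm.exists_fixed_point_of_prime hcard hσ
  exact ⟨t, t.2, congrArg Subtype.val ht⟩

theorem sgn6 (u : Equiv.Perm (Fin 126)) : Equiv.Perm.sign (u ^ 6) = 1 := by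
  rw [map_pow, show (6 : ℕ) = 2 * 3 from rfl, pow_mul, Int.units_sq, one_pow]

theorem pw12 {u : Equiv.Perm (Fin 126)} (h : u ^ 12 = 1) : (u ^ 6) ^ 2 = 1 := by rw [← pow_mul]; exact h

/-- no element of the Weyl group has the given characteristic polynomial -/
theorem weyl (E : DData chevE7) {u : Equiv.Perm (Fin chevE7.nroots)} (hu : u ∈ E.rp.wsys.W)
    (h12 : cyclotomic 12 ℤ ∣ (wm7 E u).charpoly) (h4 : cyclotomic 4 ℤ ∣ (wm7 E u).charpoly) : False := by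
  obtain ⟨e, he⟩ := cp_eq h12 h4
  have hC := wm7_C E hu
  have hee : e * e = 1 := e_sq hC CE7_det (det_eq he)
  have hu12 : u ^ 12 = 1 := u12 E hu (pow12 hee he)
  obtain ⟨s, hs⟩ := exists_fix (pw12 hu12) (sgn6 u)
  have hβ := eig (ch_eq he).2 (fix_pow E hu hs)
  have hβ4 := eig4 hee hβ
  obtain ⟨t, ht1, ht⟩ := exists_t (u := u) hu12 (s := s) (inv4 E hu hβ4)
  have hγ := fix_pow E hu ht
  rw [pow4_mulVec] at hγ
  exact Cfsg.Agent.H14.W1b.lattice hC hee he hβ (norm7 E s) (norm7 E t) ht1 hγ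

end Cfsg.Agent.H17E7
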