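import Mathlib

/-! # S5769, piece W2 (no5) -/

set_option autoImplicit false
set_option linter.all false

namespace Cfsg.Agent.H17E7

open Matrix Polynomial

namespace W2

theorem li_of_irr {l d : ℕ} {M : Matrix (Fin l) (Fin l) ℚ} {P : ℚ[X]} {v : Fin l → ℚ}
    (hP : Irreducible P) (hdeg : P.natDegree = d) (hv : v ≠ 0)
    (h : (aeval M P) *ᵥ v = 0) : LinearIndependent ℚ (fun i : Fin d => (M ^ (i : ℕ)) *ᵥ v) := by
  rw [Fintype.linearIndependent_iff]
  intro c hc
  by_contra hne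
  push Not at hne
  set C : ℚ[X] := ∑ i : Fin d, Polynomial.C (c i) * X ^ (i : ℕ) with hC
  have h1 : (aeval M C) *ᵥ v = 0 := by
    rw [hC, map_sum, Matrix.sum_mulVec, ← hc]
    refine Finset.sum_congr rfl fun i _ => ?_
    rw [map_mul, aeval_C, map_pow, aeval_X, Algebra.algebraMap_eq_smul_one, smul_mul_assoc, one_mul, Matrix.smul_mulVec]
  have hcoef : ∀ i : Fin d, C.coeff i = c i := by
    intro i
    rw [hC, finset_sum_coeff, Finset.sum_eq_single i]
    · simp
    · intro j _ hj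
      rw [coeff_C_mul, coeff_X_pow, if_neg (by rw [Fin.val_inj]; exact Ne.symm hj), mul_zero]
    · intro h; exact absurd (Finset.mem_univ i) h
  have hC0 : C ≠ 0 := by
    intro h0
    obtain ⟨i, hi⟩ := hne
    apply hi
    rw [← hcoef, h0, coeff_zero]
  have hdegC : C.natDegree < d := by
    obtain ⟨i, hi⟩ := hne
    have hl : 0 < d := lt_of_le_of_lt (Nat.zero_le _) i.2
    rw [Polynomial.natDegree_lt_iff_degree_lt hC0]
    refine lt_of_le_of_lt (Polynomial.degree_sum_le _ _) ?_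
    rw [Finset.sup_lt_iff (by exact WithBot.bot_lt_coe d)]
    intro j _
    refine lt_of_le_of_lt (degree_C_mul_X_pow_le _ _) ?_
    exact_mod_cast j.2
  have hcop : IsCoprime P C := by
    rw [hP.coprime_iff_not_dvd]
    intro hd
    have := Polynomial.natDegree_le_of_dvd hd hC0
    omega
  obtain ⟨a, b, hab⟩ := hcop
  apply hv
  have h2 : (aeval M (1 : ℚ[X])) *ᵥ v = v := by rw [map_one, Matrix.one_mulVec]
  rw [← h2, ← hab, map_add, map_mul, map_mul, Matrix.add_mulVec, ← Matrix.mulVec_mulVec, ← Matrix.mulVec_mulVec, h, h1,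
    Matrix.mulVec_zero, Matrix.mulVec_zero, add_zero]

theorem le_finrank {l d : ℕ} {M : Matrix (Fin l) (Fin l) ℚ} {P : ℚ[X]} {v : Fin l → ℚ}
    (hP : Irreducible P) (hdeg : P.natDegree = d) (hv : v ≠ 0)
    (h : (aeval M P) *ᵥ v = 0) (W : Submodule ℚ (Fin l → ℚ)) (hW : ∀ i : ℕ, (M ^ i) *ᵥ v ∈ W) :
    d ≤ Module.finrank ℚ W := by
  have h1 := li_of_irr hP hdeg hv h
  have h2 : LinearIndependent ℚ (fun i : Fin d => (⟨(M ^ (i : ℕ)) *ᵥ v, hW i⟩ : W)) := by
    apply LinearIndependent.of_comp W.subtype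
    exact h1
  have h3 := h2.fintype_card_le_finrank
  rwa [Fintype.card_fin] at h3

/-- the sum of the powers of an element of order dividing 5 is centralized by normalizing elements -/
theorem sum_comm {R : Type*} [Ring R] {M U : R} {k : ℕ} (hU5 : U ^ 5 = 1) (hk : ¬ 5 ∣ k) (hMU : M * U = U ^ k * M) :
    M * (1 + U + U ^ 2 + U ^ 3 + U ^ 4) = (1 + U + U ^ 2 + U ^ 3 + U ^ 4) * M := by
  have hr : ∀ j : ℕ, U ^ j = U ^ (j % 5) := fun j => pow_eq_pow_mod j hU5
  have h2 : M * U ^ 2 = U ^ (2 * k) * M := by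
    rw [pow_two U, ← mul_assoc, hMU, mul_assoc, hMU, ← mul_assoc, ← pow_add]; congr 2; ring
  have h3 : M * U ^ 3 = U ^ (3 * k) * M := by
    rw [pow_succ U 2, ← mul_assoc, h2, mul_assoc, hMU, ← mul_assoc, ← pow_add]; congr 2; ring
  have h4 : M * U ^ 4 = U ^ (4 * k) * M := by
    rw [pow_succ U 3, ← mul_assoc, h3, mul_assoc, hMU, ← mul_assoc, ← pow_add]; congr 2; ring
  have hsum : M * (1 + U + U ^ 2 + U ^ 3 + U ^ 4) = (1 + U ^ k + U ^ (2 * k) + U ^ (3 * k) + U ^ (4 * k)) * M := by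
    simp only [mul_add, add_mul, mul_one, one_mul, hMU, h2, h3, h4]
  rw [hsum]
  congr 1
  rw [hr k, hr (2 * k), hr (3 * k), hr (4 * k)]
  have h5 : k % 5 = 1 ∨ k % 5 = 2 ∨ k % 5 = 3 ∨ k % 5 = 4 := by omega
  rcases h5 with h | h | h | h
  · rw [show 2 * k % 5 = 2 by omega, show 3 * k % 5 = 3 by omega, show 4 * k % 5 = 4 by omega, h, pow_one]
  · rw [show 2 * k % 5 = 4 by omega, show 3 * k % 5 = 1 by omega, show 4 * k % 5 = 3 by omega, h, pow_one]; abel
  · rw [show 2 * k % 5 = 1 by omega, show 3 * k % 5 = 4 by omega, show 4 * k % 5 = 2 by omega, h, pow_one]; abel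
  · rw [show 2 * k % 5 = 3 by omega, show 3 * k % 5 = 2 by omega, show 4 * k % 5 = 1 by omega, h, pow_one]; abel

theorem aeval_comm {l : ℕ} {R : Type*} [CommRing R] {M E : Matrix (Fin l) (Fin l) R} (h : M * E = E * M) (p : R[X]) :
    (aeval M p) * E = E * aeval M p := by
  have h1 : Commute (aeval M p) E := by
    induction p using Polynomial.induction_on' with
    | add p1 p2 h1 h2 => rw [map_add]; exact h1.add_left h2
    | monomial n c =>
      rw [aeval_monomial]
      exact (Algebra.commute_algebraMap_left c E).mul_left (Commute.pow_left h n)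
  exact h1

theorem orderOf_two : orderOf (2 : ZMod 13) = 12 := by
  rw [orderOf_eq_iff (by norm_num)]
  constructor
  · decide
  · intro m h1 h2
    interval_cases m <;> decide

theorem five_ne : (5 : ZMod 13) ≠ 0 := by decide

end W2

open W2 in
theorem no5 {M U : Matrix (Fin 7) (Fin 7) ℤ} {N k : ℕ} (hN : 0 < N) (hM : M ^ N = 1) (h13 : ¬ 13 ∣ N)
    (hU5 : U ^ 5 = 1) (hU1 : U ≠ 1) (hMU : M * U = U ^ k * M) {a : Fin 7 → ZMod 13} (ha : a ≠ 0)
    (haM : a ᵥ* M.map (Int.castRingHom (ZMod 13)) = (2 : ZMod 13) • a)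
    (haU : a ᵥ* U.map (Int.castRingHom (ZMod 13)) = a) : False := by
  haveI : Fact (Nat.Prime 13) := ⟨by norm_num⟩
  have hk : ¬ 5 ∣ k := by
    rintro ⟨j, rfl⟩
    rw [pow_mul, hU5, one_pow, one_mul] at hMU
    apply hU1
    obtain ⟨n, rfl⟩ : ∃ n, N = n + 1 := ⟨N - 1, by omega⟩
    calc U = M ^ (n + 1) * U := by rw [hM, one_mul]
      _ = M ^ n * (M * U) := by rw [pow_succ, mul_assoc]
      _ = M ^ (n + 1) := by rw [hMU, pow_succ]
      _ = 1 := hM
  have hcomm := sum_comm hU5 hk hMU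
  set e : Matrix (Fin 7) (Fin 7) ℤ := 1 + U + U ^ 2 + U ^ 3 + U ^ 4 with he
  set Mr : Matrix (Fin 7) (Fin 7) (ZMod 13) := M.map (Int.castRingHom (ZMod 13)) with hMr
  have hpow : ∀ k : ℕ, a ᵥ* (Mr ^ k) = (2 : ZMod 13) ^ k • a := by
    intro k
    induction k with
    | zero => simp
    | succ k ih => rw [pow_succ, ← Matrix.vecMul_vecMul, ih, Matrix.smul_vecMul, haM, smul_smul, ← pow_succ]
  have hpowU : ∀ k : ℕ, a ᵥ* ((U.map (Int.castRingHom (ZMod 13))) ^ k) = a := by
    intro k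
    induction k with
    | zero => simp
    | succ k ih => rw [pow_succ, ← Matrix.vecMul_vecMul, ih, haU]
  have hMrN : Mr ^ N = 1 := by
    have : Mr ^ N = (M ^ N).map (Int.castRingHom (ZMod 13)) := by
      rw [hMr]; exact (map_pow (RingHom.mapMatrix (Int.castRingHom (ZMod 13))) M N).symm
    rw [this, hM]
    exact map_one (RingHom.mapMatrix (m := Fin 7) (Int.castRingHom (ZMod 13)))
  have hqN : (2 : ZMod 13) ^ N = 1 := by
    have h1 := hpow N
    rw [hMrN, Matrix.vecMul_one] at h1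
    obtain ⟨i, hi⟩ := Function.ne_iff.1 ha
    have h2 := congrFun h1 i
    rw [Pi.smul_apply, smul_eq_mul] at h2
    have h3 : ((2 : ZMod 13) ^ N - 1) * a i = 0 := by rw [sub_mul, ← h2, one_mul, sub_self]
    rcases mul_eq_zero.1 h3 with h4 | h4
    · exact sub_eq_zero.1 h4
    · exact absurd h4 hi
  have hdN : 12 ∣ N := by rw [← orderOf_two]; exact orderOf_dvd_of_pow_eq_one hqN
  have hprod := prod_cyclotomic_eq_X_pow_sub_one hN ℤ
  have hmem : 12 ∈ N.divisors := Nat.mem_divisors.2 ⟨hdN, hN.ne'⟩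
  rw [← Finset.mul_prod_erase _ _ hmem] at hprod
  set Ψ : ℤ[X] := ∏ e ∈ N.divisors.erase 12, cyclotomic e ℤ with hΨ
  have hpoly : ∀ p : ℤ[X], a ᵥ* ((aeval M p).map (Int.castRingHom (ZMod 13))) =
      (p.map (Int.castRingHom (ZMod 13))).eval 2 • a := by
    intro p
    have e1 : (aeval M p).map (Int.castRingHom (ZMod 13)) = aeval Mr (p.map (Int.castRingHom (ZMod 13))) := by
      have := Polynomial.map_aeval_eq_aeval_map (R := ℤ) (S := Matrix (Fin 7) (Fin 7) ℤ) (T := ZMod 13)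
        (U := Matrix (Fin 7) (Fin 7) (ZMod 13)) (φ := Int.castRingHom (ZMod 13))
        (ψ := RingHom.mapMatrix (m := Fin 7) (Int.castRingHom (ZMod 13))) (by ext; simp) p M
      exact this
    rw [e1]
    generalize p.map (Int.castRingHom (ZMod 13)) = p'
    induction p' using Polynomial.induction_on' with
    | add p1 p2 h1 h2 => rw [map_add, Matrix.vecMul_add, h1, h2, eval_add, add_smul]
    | monomial n c =>
      rw [aeval_monomial, eval_monomial, Algebra.algebraMap_eq_smul_one, smul_mul_assoc, one_mul, Matrix.vecMul_smul,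
        hpow, smul_smul]
  have hΨq : (Ψ.map (Int.castRingHom (ZMod 13))).eval 2 ≠ 0 := by
    rw [hΨ, Polynomial.map_prod, Polynomial.eval_prod, Finset.prod_ne_zero_iff]
    intro e he h0
    rw [Finset.mem_erase, Nat.mem_divisors] at he
    rw [map_cyclotomic] at h0
    have hre : ¬ 13 ∣ e := fun hd => h13 (hd.trans he.2.1)
    have : NeZero (e : ZMod 13) := ⟨fun h => hre ((ZMod.natCast_eq_zero_iff e 13).1 h)⟩
    have h1 : IsPrimitiveRoot (2 : ZMod 13) e := isRoot_cyclotomic_iff.1 h0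
    exact he.1 (h1.eq_orderOf.trans orderOf_two)
  have hZ : (aeval M Ψ) * e ≠ 0 := by
    intro h0
    have h1 : a ᵥ* (((aeval M Ψ) * e).map (Int.castRingHom (ZMod 13))) =
        (5 * (Ψ.map (Int.castRingHom (ZMod 13))).eval 2) • a := by
      have e1 : ((aeval M Ψ) * e).map (Int.castRingHom (ZMod 13)) =
          ((aeval M Ψ).map (Int.castRingHom (ZMod 13))) *
            (1 + (U.map (Int.castRingHom (ZMod 13))) + (U.map (Int.castRingHom (ZMod 13))) ^ 2
              + (U.map (Int.castRingHom (ZMod 13))) ^ 3 + (U.map (Int.castRingHom (ZMod 13))) ^ 4) := by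
        have e2 : e.map (Int.castRingHom (ZMod 13)) = (1 + (U.map (Int.castRingHom (ZMod 13))) + (U.map (Int.castRingHom (ZMod 13))) ^ 2
              + (U.map (Int.castRingHom (ZMod 13))) ^ 3 + (U.map (Int.castRingHom (ZMod 13))) ^ 4) := by
          have := map_add (RingHom.mapMatrix (m := Fin 7) (Int.castRingHom (ZMod 13)))
          change (RingHom.mapMatrix (m := Fin 7) (Int.castRingHom (ZMod 13))) e = _
          rw [he, map_add, map_add, map_add, map_add, map_one, map_pow, map_pow, map_pow]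
          rfl
        rw [← e2]
        exact map_mul (RingHom.mapMatrix (m := Fin 7) (Int.castRingHom (ZMod 13))) _ _
      rw [e1, ← Matrix.vecMul_vecMul, hpoly, Matrix.smul_vecMul]
      have e3 : a ᵥ* (1 + (U.map (Int.castRingHom (ZMod 13))) + (U.map (Int.castRingHom (ZMod 13))) ^ 2
              + (U.map (Int.castRingHom (ZMod 13))) ^ 3 + (U.map (Int.castRingHom (ZMod 13))) ^ 4) = (5 : ZMod 13) • a := by
        rw [Matrix.vecMul_add, Matrix.vecMul_add, Matrix.vecMul_add, Matrix.vecMul_add, Matrix.vecMul_one,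
          hpowU, hpowU, hpowU, haU]
        ext i
        simp only [Pi.add_apply, Pi.smul_apply, smul_eq_mul]
        ring
      rw [e3, smul_smul, mul_comm]
    rw [h0] at h1
    have h2 : (0 : Matrix (Fin 7) (Fin 7) ℤ).map (Int.castRingHom (ZMod 13)) = 0 :=
      map_zero (RingHom.mapMatrix (m := Fin 7) (Int.castRingHom (ZMod 13)))
    rw [h2, Matrix.vecMul_zero, eq_comm, smul_eq_zero] at h1
    rcases h1 with h3 | h3
    · rcases mul_eq_zero.1 h3 with h4 | h4
      · exact absurd h4 five_ne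
      · exact hΨq h4
    · exact ha h3
  -- rational matrices
  let ψ : Matrix (Fin 7) (Fin 7) ℤ →+* Matrix (Fin 7) (Fin 7) ℚ := RingHom.mapMatrix (m := Fin 7) (Int.castRingHom ℚ)
  have hψinj : Function.Injective ψ := by
    intro x y hxy
    ext i j
    have := congrFun (congrFun hxy i) j
    have h1 : ((x i j : ℤ) : ℚ) = ((y i j : ℤ) : ℚ) := this
    exact_mod_cast h1
  have hψae : ∀ p : ℤ[X], ψ (aeval M p) = aeval (ψ M) (p.map (Int.castRingHom ℚ)) := by
    intro p
    exact Polynomial.map_aeval_eq_aeval_map (R := ℤ) (S := Matrix (Fin 7) (Fin 7) ℤ) (T := ℚ)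
        (U := Matrix (Fin 7) (Fin 7) ℚ) (φ := Int.castRingHom ℚ) (ψ := ψ) (by ext; simp) p M
  have hcommq : ψ M * ψ e = ψ e * ψ M := by rw [← map_mul, ← map_mul, hcomm]
  have hZq : (aeval (ψ M) (Ψ.map (Int.castRingHom ℚ))) * ψ e ≠ 0 := by
    rw [← hψae, ← map_mul]
    intro h
    exact hZ (hψinj (by rw [h, map_zero]))
  obtain ⟨j, hj⟩ : ∃ j, ((aeval (ψ M) (Ψ.map (Int.castRingHom ℚ))) * ψ e) *ᵥ (Pi.single j 1) ≠ 0 := by
    by_contra hcon
    push Not at hcon
    apply hZq
    ext i j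
    have := congrFun (hcon j) i
    rw [Matrix.mulVec_single_one] at this
    exact this
  set v := ((aeval (ψ M) (Ψ.map (Int.castRingHom ℚ))) * ψ e) *ᵥ (Pi.single j (1 : ℚ)) with hv
  have hv12 : (aeval (ψ M) (cyclotomic 12 ℚ)) *ᵥ v = 0 := by
    rw [hv, Matrix.mulVec_mulVec, ← mul_assoc, ← map_mul]
    have h1 : cyclotomic 12 ℚ * Ψ.map (Int.castRingHom ℚ) = X ^ N - 1 := by
      rw [← map_cyclotomic 12 (Int.castRingHom ℚ), ← Polynomial.map_mul, hprod]
      simp
    rw [h1, map_sub, map_pow, aeval_X, map_one, ← map_pow, hM, map_one, sub_self, zero_mul, Matrix.zero_mulVec]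
  have hve : ∃ y, v = ψ e *ᵥ y := by
    refine ⟨(aeval (ψ M) (Ψ.map (Int.castRingHom ℚ))) *ᵥ (Pi.single j (1 : ℚ)), ?_⟩
    rw [Matrix.mulVec_mulVec, hv, aeval_comm hcommq]
  have hrange : 4 ≤ Module.finrank ℚ (LinearMap.range (ψ e).mulVecLin) := by
    refine le_finrank (M := ψ M) (P := cyclotomic 12 ℚ) (v := v) (cyclotomic.irreducible_rat (by norm_num)) ?_ hj hv12 _ ?_
    · rw [natDegree_cyclotomic]; decide
    · intro i
      obtain ⟨y, hy⟩ := hve
      refine ⟨((ψ M) ^ i) *ᵥ y, ?_⟩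
      rw [Matrix.mulVecLin_apply, hy, Matrix.mulVec_mulVec, Matrix.mulVec_mulVec]
      congr 1
      exact ((Commute.pow_left hcommq i).eq).symm
  obtain ⟨j', hj'⟩ : ∃ j, (ψ U - 1) *ᵥ (Pi.single j 1) ≠ 0 := by
    by_contra hcon
    push Not at hcon
    have h1 : ψ U - 1 = 0 := by
      ext i j
      have := congrFun (hcon j) i
      rw [Matrix.mulVec_single_one] at this
      exact this
    apply hU1
    apply hψinj
    rw [map_one]; exact sub_eq_zero.1 h1
  have hψe : ψ e = 1 + ψ U + (ψ U) ^ 2 + (ψ U) ^ 3 + (ψ U) ^ 4 := by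
    rw [he, map_add, map_add, map_add, map_add, map_one, map_pow, map_pow, map_pow]
  have hψU5 : (ψ U) ^ 5 = 1 := by rw [← map_pow, hU5, map_one]
  have heU : ψ e * (ψ U - 1) = 0 := by
    have : ψ e * (ψ U - 1) = (ψ U) ^ 5 - 1 := by
      rw [hψe]; noncomm_ring
    rw [this, hψU5, sub_self]
  have hcU : ψ U * ψ e = ψ e * ψ U := by
    rw [hψe]; noncomm_ring
  have hker : 4 ≤ Module.finrank ℚ (LinearMap.ker (ψ e).mulVecLin) := by
    haveI : Fact (Nat.Prime 5) := ⟨by norm_num⟩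
    refine le_finrank (M := ψ U) (P := cyclotomic 5 ℚ) (v := (ψ U - 1) *ᵥ (Pi.single j' 1))
      (cyclotomic.irreducible_rat (by norm_num)) ?_ hj' ?_ _ ?_
    · rw [natDegree_cyclotomic]; decide
    · have h1 : aeval (ψ U) (cyclotomic 5 ℚ) = ψ e := by
        rw [cyclotomic_prime, hψe]
        simp only [Finset.sum_range_succ, Finset.sum_range_zero, map_add, map_pow, aeval_X, map_zero, pow_zero, pow_one,
          map_one, zero_add]
      rw [h1, Matrix.mulVec_mulVec, heU, Matrix.zero_mulVec]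
    · intro i
      rw [LinearMap.mem_ker, Matrix.mulVecLin_apply, Matrix.mulVec_mulVec, Matrix.mulVec_mulVec]
      have h1 : ψ e * (ψ U) ^ i = (ψ U) ^ i * ψ e := ((Commute.pow_left hcU i).eq).symm
      rw [h1, mul_assoc, heU, mul_zero, Matrix.zero_mulVec]
  have hsum := LinearMap.finrank_range_add_finrank_ker (ψ e).mulVecLin
  rw [Module.finrank_fintype_fun_eq_card, Fintype.card_fin] at hsum
  omega

end Cfsg.Agent.H17E7
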