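import Cfsg.Agent.H17E7.Idx
import Cfsg.Agent.H17E7.Frat
import Cfsg.Agent.ChevPG.Reg
import Cfsg.Agent.ChevF.E7W
import Cfsg.Agent.H17E7.W1
import Cfsg.Agent.H17E7.W2

set_option autoImplicit false

/-!
# `E7(2)` has no element of order 65 (helper17)
-/

namespace Cfsg.Agent.H17E7

open Cfsg.Lie Cfsg.Agent.Chev Cfsg.Agent.ChevGrp Cfsg.Agent.ChevF Cfsg.Agent.ChevPG Matrix Polynomial

theorem torE7 {L : Type*} [Field L] [Fintype L] {m : ℕ} (hL : Fintype.card L = 2 ^ m) (hm : 0 < m) (χ : ℕ → Lˣ) :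
    ChevU.torHom chevE7 L χ ∈ chevE7.diagonalSubgroup L := by
  refine torHom_mem hE7 ?_ χ
  have h := Cfsg.Agent.ChevU.card_diag (F := L) rfl (chevE7, Nat.gcd 2 (Fintype.card L - 1)) (by simp)
  have h2 : Nat.gcd 2 (Fintype.card L - 1) = 1 := by
    rw [hL]
    have h3 : ¬ 2 ∣ 2 ^ m - 1 := by
      obtain ⟨k, rfl⟩ : ∃ k, m = k + 1 := ⟨m - 1, by omega⟩
      have : 0 < 2 ^ k := by positivity
      rw [pow_succ]
      omega
    exact (Nat.Prime.coprime_iff_not_dvd Nat.prime_two).2 h3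
  rw [h2] at h
  rw [one_mul] at h; exact h

theorem vecMul_pow {l : ℕ} {R : Type*} [CommRing R] {M : Matrix (Fin l) (Fin l) R} {a : Fin l → R} {q : R} (h : a ᵥ* M = q • a) (k : ℕ) :
    a ᵥ* (M ^ k) = q ^ k • a := by
  induction k with
  | zero => simp
  | succ k ih => rw [pow_succ, ← Matrix.vecMul_vecMul, ih, Matrix.smul_vecMul, h, smul_smul, ← pow_succ]

theorem ainv {n : ℕ} (f : Equiv.Perm (Fin n)) (s : Fin n) : f (f⁻¹ s) = s := f.apply_symm_apply s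

/-- the torus index is prime to 5 -/
theorem idx5 (E : DData chevE7) {K : Type*} [Field K] [Fintype K] (hTK : ∀ χ : ℕ → Kˣ, ChevU.torHom chevE7 K χ ∈ chevE7.diagonalSubgroup K)
    (h5 : 5 ∣ Fintype.card K - 1) (h13 : 13 ∣ Fintype.card K - 1) (hinj : ∀ x y : K, x ^ 2 = y ^ 2 → x = y)
    {t : GL chevE7.Idx K} (ht : t ∈ chevE7.diagonalSubgroup K) (ht1 : t ≠ 1)
    (ht13 : t ^ 13 = 1) {w : Equiv.Perm (Fin chevE7.nroots)} (hw : w ∈ E.rp.wsys.W) (hev : ∀ s, ev t (w s) = ev t s ^ 2) :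
    ¬ 5 ∣ ((chevE7.diagonalSubgroup K).subgroupOf (chevE7.group K ⊓ Subgroup.centralizer {t})).index := by
  intro hdvd
  haveI f5 : Fact (Nat.Prime 5) := ⟨by norm_num⟩
  haveI f13 : Fact (Nat.Prime 13) := ⟨by norm_num⟩
  have hcW := card_W_E7 E
  obtain ⟨u, hu, hu5, hut⟩ := idx E hE7 hTK h5 ht hdvd
  -- the stabilizer
  let S : Subgroup ↥E.rp.wsys.W :=
    { carrier := {v | ∀ s, ev t ((v : Equiv.Perm (Fin chevE7.nroots)) s) = ev t s}
      one_mem' := fun s => rfl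
      mul_mem' := by
        intro a b ha hb s
        show ev t ((a : Equiv.Perm (Fin chevE7.nroots)) ((b : Equiv.Perm (Fin chevE7.nroots)) s)) = ev t s
        rw [ha, hb]
      inv_mem' := by
        intro a ha s
        have h1 := ha ((a : Equiv.Perm (Fin chevE7.nroots))⁻¹ s)
        rw [ainv] at h1
        exact h1.symm }
  have hS : ∀ v : ↥E.rp.wsys.W, v ∈ S ↔ ∀ s, ev t ((v : Equiv.Perm (Fin chevE7.nroots)) s) = ev t s := fun v => Iff.rfl
  have hwS : ∀ s ∈ S, (⟨w, hw⟩ : ↥E.rp.wsys.W) * s * (⟨w, hw⟩ : ↥E.rp.wsys.W)⁻¹ ∈ S := by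
    intro v hv
    rw [hS]
    intro x
    show ev t (w ((v : Equiv.Perm (Fin chevE7.nroots)) (w⁻¹ x))) = ev t x
    rw [hev, (hS v).1 hv, ← hev, ainv]
  obtain ⟨v, hv, k, hk⟩ := frat (W := ↥E.rp.wsys.W) (by rw [hcW]; norm_num) S (u := ⟨u, hu⟩) (w := ⟨w, hw⟩) hut
    (by rw [Subgroup.orderOf_mk]; exact hu5) hwS
  set w' : Equiv.Perm (Fin chevE7.nroots) := (v : Equiv.Perm (Fin chevE7.nroots)) * w with hw'
  have hw'W : w' ∈ E.rp.wsys.W := mul_mem v.2 hw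
  have hk' : w' * u = u ^ k * w' := congrArg Subtype.val hk
  have hev' : ∀ s, ev t (w' s) = ev t s ^ 2 := by
    intro s
    show ev t ((v : Equiv.Perm (Fin chevE7.nroots)) (w s)) = _
    rw [(hS v).1 hv, hev]
  obtain ⟨z, hz, a, ha⟩ := exists_log E hE7 h13 ht ht13
  have ha0 := log_ne_zero E hE7 (by norm_num : (13 : ℕ) ≠ 0) hz ht ht1 ha
  have haM := log_eigen E hE7 (by norm_num : (13 : ℕ) ≠ 0) hz ht ha hev'
  have haU := log_eigen E hE7 (by norm_num : (13 : ℕ) ≠ 0) hz ht ha (u := u) (q := 1) (fun s => by rw [pow_one]; exact hut s)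
  rw [Nat.cast_one, one_smul] at haU
  have G := good_of_mem hE7
  have e1 : wm7 E w' * wm7 E u = wm7 E u ^ k * wm7 E w' := by
    have h1 : wm7 E w' * wm7 E u = wm7 E (w' * u) := (wm_mul E G hw'W).symm
    have h2 : wm7 E u ^ k = wm7 E (u ^ k) := (wm_pow E G hu k).symm
    have h3 : wm7 E (u ^ k) * wm7 E w' = wm7 E (u ^ k * w') := (wm_mul E G (pow_mem hu k)).symm
    rw [h1, h2, h3, hk']
  have e2 : wm7 E u ^ 5 = 1 := by
    have h2 : wm7 E u ^ 5 = wm7 E (u ^ 5) := (wm_pow E G hu 5).symm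
    rw [h2, ← hu5, pow_orderOf_eq_one]
    exact wm_one E G
  have e3 : wm7 E u ≠ 1 := by
    intro h
    have h1 : wm E u = wm E 1 := h.trans (wm_one E G).symm
    have h2 := wm_inj E G hu (one_mem _) h1
    rw [h2, orderOf_one] at hu5
    norm_num at hu5
  have e4 : wm7 E w' ^ 2903040 = 1 := by
    have := wm_pow_card E hE7 hw'W
    rw [hcW] at this
    exact this
  exact no5 (M := wm7 E w') (U := wm7 E u) (N := 2903040) (k := k) (by norm_num) e4 (by norm_num) e2 e3 e1 (a := fun i => ((a i : ℤ) : ZMod 13))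
    ha0 haM haU

theorem order12 : orderOf (((2 : ℕ) : ZMod 13) ^ 5) = 12 := by
  rw [orderOf_eq_iff (by norm_num)]
  refine ⟨by decide, fun m h1 h2 => ?_⟩
  interval_cases m <;> decide

theorem order4 : orderOf (((2 : ℕ) : ZMod 5) ^ 5) = 4 := by
  rw [orderOf_eq_iff (by norm_num)]
  refine ⟨by decide, fun m h1 h2 => ?_⟩
  interval_cases m <;> decide

/-- `E7(2)` has no element of order 65 -/
theorem no65 {F : Type*} [Field F] [Fintype F] (hF : Fintype.card F = 2) (z : ↥(chevE7.group F)) : orderOf z ≠ 65 := by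
  intro hz'
  obtain ⟨E⟩ := DData.nonempty_of_mem (D := chevE7) hE7
  haveI f5 : Fact (Nat.Prime 5) := ⟨by norm_num⟩
  haveI f13 : Fact (Nat.Prime 13) := ⟨by norm_num⟩
  have hcW := card_W_E7 E
  have G := good_of_mem hE7
  obtain ⟨K, i1, i2, ι, σ, h1, h2, h3, h4⟩ := exists_ext hF (show 0 < 12 by norm_num)
  have hTK : ∀ χ : ℕ → Kˣ, ChevU.torHom chevE7 K χ ∈ chevE7.diagonalSubgroup K := torE7 h1 (by norm_num)
  have h13K : 13 ∣ Fintype.card K - 1 := by rw [h1]; norm_num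
  have h5K : 5 ∣ Fintype.card K - 1 := by rw [h1]; norm_num
  have hinj : ∀ x y : K, x ^ 2 = y ^ 2 → x = y := by
    intro x y hxy
    rw [← h2, ← h2] at hxy
    exact σ.injective hxy
  have hWℓ : ¬ 13 ∣ Nat.card E.rp.wsys.W := by rw [hcW]; norm_num
  set y : GL chevE7.Idx F := ((z ^ 5 : ↥(chevE7.group F)) : GL chevE7.Idx F) with hy
  set x : GL chevE7.Idx F := ((z ^ 13 : ↥(chevE7.group F)) : GL chevE7.Idx F) with hx
  have hz65 : z ^ 65 = 1 := by rw [← hz']; exact pow_orderOf_eq_one z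
  have hyℓ : y ^ 13 = 1 := by
    rw [hy, ← Subgroup.coe_pow, ← pow_mul]
    show ((z ^ 65 : ↥(chevE7.group F)) : GL chevE7.Idx F) = 1
    rw [hz65]; rfl
  have hxr : x ^ 5 = 1 := by
    rw [hx, ← Subgroup.coe_pow, ← pow_mul]
    show ((z ^ 65 : ↥(chevE7.group F)) : GL chevE7.Idx F) = 1
    rw [hz65]; rfl
  have hy1 : y ≠ 1 := by
    intro h
    have h1 : z ^ 5 = 1 := Subtype.ext h
    have h2 := orderOf_dvd_of_pow_eq_one h1
    rw [hz'] at h2
    norm_num at h2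
  have hx1 : x ≠ 1 := by
    intro h
    have h1 : z ^ 13 = 1 := Subtype.ext h
    have h2 := orderOf_dvd_of_pow_eq_one h1
    rw [hz'] at h2
    norm_num at h2
  have hxy : x * y = y * x := by
    rw [hx, hy, ← Subgroup.coe_mul, ← Subgroup.coe_mul, ← pow_add, ← pow_add, add_comm]
  have hyι : glMap chevE7.Idx ι y ^ 13 = 1 := by rw [← map_pow, hyℓ, map_one]
  have hxι : glMap chevE7.Idx ι x ^ 5 = 1 := by rw [← map_pow, hxr, map_one]
  obtain ⟨g₁, hg₁, ht⟩ := exists_conj_in E hE7 h13K hWℓ (diag_le_grp (K := K) E hE7) le_rfl (glMap_mem ι (z ^ 5).2) hyι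
  set t : GL chevE7.Idx K := g₁⁻¹ * glMap chevE7.Idx ι y * g₁ with ht_def
  have ht1 : t ≠ 1 := conj_ne_one (fun h => hy1 (glMap_injective ι (by rw [h, map_one])))
  have ht13 : t ^ 13 = 1 := conj_pow_eq hyι
  have hidx : ¬ 5 ∣ ((chevE7.diagonalSubgroup K).subgroupOf (chevE7.group K ⊓ Subgroup.centralizer {t})).index := by
    obtain ⟨b, hb, m, hm, w, hw, hbmw, u, hu, hact, hf, -⟩ := frame E hE7 ι h2 h3 hg₁
    exact idx5 E hTK h5K h13K hinj ht ht1 ht13 hu (hf y ht).1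
  have hx1' : g₁⁻¹ * glMap chevE7.Idx ι x * g₁ ∈ chevE7.group K ⊓ Subgroup.centralizer {t} := by
    refine Subgroup.mem_inf.2 ⟨mul_mem (mul_mem (inv_mem hg₁) (glMap_mem ι (z ^ 13).2)) hg₁, ?_⟩
    rw [Subgroup.mem_centralizer_iff]
    rintro _ rfl
    rw [ht_def]
    have h6 : glMap chevE7.Idx ι x * glMap chevE7.Idx ι y = glMap chevE7.Idx ι y * glMap chevE7.Idx ι x := by rw [← map_mul, hxy, map_mul]
    calc g₁⁻¹ * glMap chevE7.Idx ι y * g₁ * (g₁⁻¹ * glMap chevE7.Idx ι x * g₁) = g₁⁻¹ * (glMap chevE7.Idx ι y * glMap chevE7.Idx ι x) * g₁ := by group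
      _ = g₁⁻¹ * (glMap chevE7.Idx ι x * glMap chevE7.Idx ι y) * g₁ := by rw [h6]
      _ = _ := by group
  obtain ⟨h, hh, hxh⟩ : ∃ h ∈ chevE7.group K ⊓ Subgroup.centralizer {t},
      h⁻¹ * (g₁⁻¹ * glMap chevE7.Idx ι x * g₁) * h ∈ chevE7.diagonalSubgroup K := by
    haveI : Finite (GL chevE7.Idx K) := inferInstance
    set C := chevE7.group K ⊓ Subgroup.centralizer {t} with hC
    set B' := (chevE7.diagonalSubgroup K).subgroupOf C with hB'
    set x' : GL chevE7.Idx K := g₁⁻¹ * glMap chevE7.Idx ι x * g₁ with hx'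
    have hx5 : x' ^ 5 = 1 := conj_pow_eq hxι
    set V' : Subgroup ↥C := Subgroup.zpowers ⟨x', hx1'⟩ with hV'
    have hVp' : IsPGroup 5 ↥V' := by
      rintro ⟨x, hx⟩
      refine ⟨1, ?_⟩
      obtain ⟨k, hk⟩ := Subgroup.mem_zpowers_iff.1 hx
      apply Subtype.ext
      show x ^ 5 ^ 1 = 1
      have h3 : (⟨x', hx1'⟩ : ↥C) ^ 5 = 1 := Subtype.ext (by simpa using hx5)
      rw [pow_one, ← hk, ← zpow_natCast, zpow_comm, zpow_natCast, h3, _root_.one_zpow]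
    obtain ⟨c, hc⟩ := hVp'.nonempty_fixed_point_of_prime_not_dvd_card (α := ↥C ⧸ B') hidx
    induction c using QuotientGroup.induction_on with
    | H g =>
      refine ⟨g, g.2, ?_⟩
      have h3 := hc ⟨⟨x', hx1'⟩, Subgroup.mem_zpowers _⟩
      have h4 : ((⟨x', hx1'⟩ * g : ↥C) : ↥C ⧸ B') = (g : ↥C ⧸ B') := h3
      rw [eq_comm, QuotientGroup.eq, Subgroup.mem_subgroupOf] at h4
      have : (g : GL chevE7.Idx K)⁻¹ * x' * (g : GL chevE7.Idx K) = ((g⁻¹ * (⟨x', hx1'⟩ * g) : ↥C) : GL chevE7.Idx K) := by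
        simp [mul_assoc]
      rw [this]; exact h4
  have hht : h⁻¹ * t * h = t := by
    have := (Subgroup.mem_centralizer_iff.1 (Subgroup.mem_inf.1 hh).2) t rfl
    rw [mul_assoc, this]; group
  have hg : g₁ * h ∈ chevE7.group K := mul_mem hg₁ (Subgroup.mem_inf.1 hh).1
  have ey : (g₁ * h)⁻¹ * glMap chevE7.Idx ι y * (g₁ * h) = t := by
    rw [← hht, ht_def]; group
  have hyd : (g₁ * h)⁻¹ * glMap chevE7.Idx ι y * (g₁ * h) ∈ chevE7.diagonalSubgroup K := by rw [ey]; exact ht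
  have hxd : (g₁ * h)⁻¹ * glMap chevE7.Idx ι x * (g₁ * h) ∈ chevE7.diagonalSubgroup K := by
    have : (g₁ * h)⁻¹ * glMap chevE7.Idx ι x * (g₁ * h) = h⁻¹ * (g₁⁻¹ * glMap chevE7.Idx ι x * g₁) * h := by group
    rw [this]; exact hxh
  obtain ⟨b, hb, m, hm, w, hw, hbmw, u, hu, hact, hf, -⟩ := frame E hE7 ι h2 h3 hg
  obtain ⟨ζ, hζ, a, ha, ha0, haM⟩ := log_data E hE7 (r := 13) h13K hyd
    (conj_ne_one (fun h => hy1 (glMap_injective ι (by rw [h, map_one])))) (conj_pow_eq hyι) (hf y hyd).1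
  obtain ⟨ζ', hζ', a', ha', ha0', haM'⟩ := log_data E hE7 (r := 5) h5K hxd
    (conj_ne_one (fun h => hx1 (glMap_injective ι (by rw [h, map_one])))) (conj_pow_eq hxι) (hf x hxd).1
  have hu5 : u ^ 5 ∈ E.rp.wsys.W := pow_mem hu 5
  have hM5 : wm E (u ^ 5) ^ 580608 = 1 := by
    rw [wm_pow E G hu, ← pow_mul]
    have h6 := wm_pow_card E hE7 hu
    rw [hcW] at h6
    exact h6
  have e1 : (fun i => ((a i : ℤ) : ZMod 13)) ᵥ* (wm E (u ^ 5)).map (Int.castRingHom (ZMod 13)) =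
      (((2 : ℕ) : ZMod 13) ^ 5) • (fun i => ((a i : ℤ) : ZMod 13)) := by
    rw [wm_pow E G hu]
    have h7 : (wm E u ^ 5).map (Int.castRingHom (ZMod 13)) = ((wm E u).map (Int.castRingHom (ZMod 13))) ^ 5 :=
      map_pow (RingHom.mapMatrix (m := Fin chevE7.rank) (Int.castRingHom (ZMod 13))) (wm E u) 5
    rw [h7]
    exact vecMul_pow haM 5
  have e2 : (fun i => ((a' i : ℤ) : ZMod 5)) ᵥ* (wm E (u ^ 5)).map (Int.castRingHom (ZMod 5)) =
      (((2 : ℕ) : ZMod 5) ^ 5) • (fun i => ((a' i : ℤ) : ZMod 5)) := by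
    rw [wm_pow E G hu]
    have h7 : (wm E u ^ 5).map (Int.castRingHom (ZMod 5)) = ((wm E u).map (Int.castRingHom (ZMod 5))) ^ 5 :=
      map_pow (RingHom.mapMatrix (m := Fin chevE7.rank) (Int.castRingHom (ZMod 5))) (wm E u) 5
    rw [h7]
    exact vecMul_pow haM' 5
  have c1 := cyc_dvd_charpoly (by norm_num : 0 < 580608) hM5 (r := 13) (by norm_num) ha0 e1 (by rw [order12]; norm_num)
  have c2 := cyc_dvd_charpoly (by norm_num : 0 < 580608) hM5 (r := 5) (by norm_num) ha0' e2 (by rw [order4]; norm_num)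
  rw [order12] at c1
  rw [order4] at c2
  exact weyl E hu5 c1 c2

end Cfsg.Agent.H17E7
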