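import Mathlib

set_option autoImplicit false

/-!
The characteristic polynomial of an isometry of order twelve in rank seven.
-/

namespace Cfsg.Agent.H17E7

open Matrix Polynomial

/-- the product of two cyclotomic polynomials -/
theorem cyc_mul : cyclotomic 12 ℤ * cyclotomic 4 ℤ = X ^ 6 + 1 := by
  have h12 := prod_cyclotomic_eq_X_pow_sub_one (n := 12) (by norm_num) ℤ
  have h6 := prod_cyclotomic_eq_X_pow_sub_one (n := 6) (by norm_num) ℤ
  have d12 : Nat.divisors 12 = {1, 2, 3, 4, 6, 12} := by decide +kernel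
  have d6 : Nat.divisors 6 = {1, 2, 3, 6} := by decide +kernel
  rw [d12] at h12
  rw [d6] at h6
  simp only [Finset.prod_insert, Finset.mem_insert, Finset.mem_singleton, Finset.prod_singleton, Nat.reduceEqDiff, or_self,
    not_false_eq_true] at h12 h6
  have h0 : (X ^ 6 - 1 : ℤ[X]) ≠ 0 := by
    have := (monic_X_pow_sub_C (1 : ℤ) (n := 6) (by norm_num)).ne_zero
    rwa [C_1] at this
  apply mul_left_cancel₀ h0
  calc (X ^ 6 - 1 : ℤ[X]) * (cyclotomic 12 ℤ * cyclotomic 4 ℤ)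
      = (cyclotomic 1 ℤ * (cyclotomic 2 ℤ * (cyclotomic 3 ℤ * cyclotomic 6 ℤ))) * (cyclotomic 12 ℤ * cyclotomic 4 ℤ) := by rw [h6]
    _ = cyclotomic 1 ℤ * (cyclotomic 2 ℤ * (cyclotomic 3 ℤ * (cyclotomic 4 ℤ * (cyclotomic 6 ℤ * cyclotomic 12 ℤ)))) := by ring
    _ = X ^ 12 - 1 := h12
    _ = (X ^ 6 - 1) * (X ^ 6 + 1) := by ring

theorem cp_eq {M : Matrix (Fin 7) (Fin 7) ℤ} (h12 : cyclotomic 12 ℤ ∣ M.charpoly) (h4 : cyclotomic 4 ℤ ∣ M.charpoly) :
    ∃ e : ℤ, M.charpoly = (X ^ 6 + 1) * (X - C e) := by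
  have hd : cyclotomic 12 ℤ * cyclotomic 4 ℤ ∣ M.charpoly := by
    obtain ⟨m, hm⟩ := h12
    rw [hm] at h4 ⊢
    have hp : Prime (cyclotomic 4 ℤ) := (cyclotomic.irreducible (by norm_num)).prime
    rcases hp.dvd_or_dvd h4 with h | h
    · exfalso
      have hi : Irreducible (cyclotomic 12 ℤ) := cyclotomic.irreducible (by norm_num)
      have h1 : Associated (cyclotomic 4 ℤ) (cyclotomic 12 ℤ) :=
        (cyclotomic.irreducible (by norm_num)).associated_of_dvd hi h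
      have h2 := eq_of_monic_of_associated (cyclotomic.monic 4 ℤ) (cyclotomic.monic 12 ℤ) h1
      have h3 := congrArg natDegree h2
      rw [natDegree_cyclotomic, natDegree_cyclotomic] at h3
      have e4 : Nat.totient 4 = 2 := by decide +kernel
      have e12 : Nat.totient 12 = 4 := by decide +kernel
      rw [e4, e12] at h3
      omega
    · obtain ⟨k, hk⟩ := h
      exact ⟨k, by rw [hk]; ring⟩
  rw [cyc_mul] at hd
  obtain ⟨r, hr⟩ := hd
  have hm6 : (X ^ 6 + 1 : ℤ[X]).Monic := by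
    have := monic_X_pow_add_C (1 : ℤ) (n := 6) (by norm_num)
    simpa using this
  have hn6 : (X ^ 6 + 1 : ℤ[X]).natDegree = 6 := by
    have := natDegree_X_pow_add_C (n := 6) (r := (1 : ℤ))
    simpa using this
  have hcm : M.charpoly.Monic := M.charpoly_monic
  have hrm : r.Monic := by
    rw [hr] at hcm
    exact hm6.of_mul_monic_left hcm
  have hdeg : r.natDegree = 1 := by
    have h1 : M.charpoly.natDegree = 7 := by rw [M.charpoly_natDegree_eq_dim]; rfl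
    rw [hr, hm6.natDegree_mul hrm, hn6] at h1
    omega
  refine ⟨-r.coeff 0, ?_⟩
  rw [hr]
  refine congrArg (fun q => (X ^ 6 + 1 : ℤ[X]) * q) ?_
  have h2 := eq_X_add_C_of_natDegree_le_one (p := r) (by omega)
  have h3 : r.coeff 1 = 1 := by
    have := hrm.coeff_natDegree
    rwa [hdeg] at this
  calc r = C (r.coeff 1) * X + C (r.coeff 0) := h2
    _ = X - C (-r.coeff 0) := by rw [h3, C_1, one_mul, C_neg, sub_neg_eq_add]

theorem det_eq {M : Matrix (Fin 7) (Fin 7) ℤ} {e : ℤ} (h : M.charpoly = (X ^ 6 + 1) * (X - C e)) : M.det = e := by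
  have h1 := M.det_eq_sign_charpoly_coeff
  have h2 : ((X ^ 6 + 1) * (X - C e) : ℤ[X]).coeff 0 = -e := by
    rw [mul_coeff_zero, coeff_sub, coeff_X_zero, coeff_C_zero, coeff_add, coeff_X_pow, coeff_one_zero]
    norm_num
  rw [h, h2, Fintype.card_fin] at h1
  rw [h1]
  ring

theorem ch_eq {M : Matrix (Fin 7) (Fin 7) ℤ} {e : ℤ} (h : M.charpoly = (X ^ 6 + 1) * (X - C e)) :
    (M ^ 6 + 1) * (M - e • (1 : Matrix (Fin 7) (Fin 7) ℤ)) = 0 ∧ (M - e • (1 : Matrix (Fin 7) (Fin 7) ℤ)) * (M ^ 6 + 1) = 0 := by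
  have h1 := M.aeval_self_charpoly
  have hA : aeval M (X ^ 6 + 1 : ℤ[X]) = M ^ 6 + 1 := by simp
  have hB : aeval M (X - C e : ℤ[X]) = M - e • (1 : Matrix (Fin 7) (Fin 7) ℤ) := by
    rw [map_sub, aeval_X, aeval_C, Algebra.algebraMap_eq_smul_one]
  constructor
  · rw [← hA, ← hB, ← map_mul, ← h, h1]
  · rw [← hA, ← hB, ← map_mul, mul_comm, ← h, h1]

theorem pow12 {M : Matrix (Fin 7) (Fin 7) ℤ} {e : ℤ} (he : e * e = 1) (h : M.charpoly = (X ^ 6 + 1) * (X - C e)) : M ^ 12 = 1 := by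
  have h1 := M.aeval_self_charpoly
  have h2 : (X ^ 12 - 1 : ℤ[X]) = M.charpoly * (X ^ 5 + C e * X ^ 4 + X ^ 3 + C e * X ^ 2 + X + C e) := by
    rw [h]
    have h3 : (C e * C e : ℤ[X]) = 1 := by rw [← C_mul, he, C_1]
    linear_combination ((X ^ 6 + 1) * (X ^ 4 + X ^ 2 + 1) : ℤ[X]) * h3
  have h4 : aeval M (X ^ 12 - 1 : ℤ[X]) = 0 := by rw [h2, map_mul, h1, zero_mul]
  have h5 : aeval M (X ^ 12 - 1 : ℤ[X]) = M ^ 12 - 1 := by simp
  rw [h5] at h4
  exact sub_eq_zero.1 h4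

end Cfsg.Agent.H17E7
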