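import Cfsg.Agent.H17E7.W1t

set_option autoImplicit false
set_option maxRecDepth 100000

/-!
Auxiliary statements on isometries.
-/

namespace Cfsg.Agent.H17E7

open Cfsg.Lie Cfsg.Agent.Chev Cfsg.Agent.ChevGrp Cfsg.Agent.ChevF Matrix Polynomial

theorem CE7_det : CE7.det ≠ 0 := by
  intro h
  obtain ⟨x, hx, hx0⟩ := Matrix.exists_mulVec_eq_zero_iff.2 h
  have := CE7_pos x hx
  rw [hx0, dotProduct_zero] at this
  exact lt_irrefl _ this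

theorem e_sq {M C : Matrix (Fin 7) (Fin 7) ℤ} (hC : Mᵀ * C * M = C) (hd : C.det ≠ 0) {e : ℤ} (h : M.det = e) : e * e = 1 := by
  have h1 := congrArg Matrix.det hC
  rw [Matrix.det_mul, Matrix.det_mul, Matrix.det_transpose, h] at h1
  generalize C.det = d at h1 hd
  have h2 : d * (e * e - 1) = 0 := by linear_combination h1
  rcases mul_eq_zero.1 h2 with h3 | h3
  · exact absurd h3 hd
  · linarith

theorem eig {M : Matrix (Fin 7) (Fin 7) ℤ} {e : ℤ} (h : (M - e • (1 : Matrix (Fin 7) (Fin 7) ℤ)) * (M ^ 6 + 1) = 0)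
    {β : Fin 7 → ℤ} (hβ6 : M ^ 6 *ᵥ β = β) : M *ᵥ β = e • β := by
  have h1 : (M - e • (1 : Matrix (Fin 7) (Fin 7) ℤ)) *ᵥ ((M ^ 6 + 1) *ᵥ β) = 0 := by
    rw [Matrix.mulVec_mulVec, h, Matrix.zero_mulVec]
  have h2 : (M ^ 6 + 1) *ᵥ β = β + β := by rw [Matrix.add_mulVec, hβ6, Matrix.one_mulVec]
  have h3 : (M - e • (1 : Matrix (Fin 7) (Fin 7) ℤ)) *ᵥ (β + β) = (M *ᵥ β + M *ᵥ β) - e • (β + β) := by
    rw [Matrix.sub_mulVec, Matrix.smul_mulVec, Matrix.one_mulVec, Matrix.mulVec_add]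
  rw [h2, h3] at h1
  funext k
  have h4 := congrFun h1 k
  simp only [Pi.add_apply, Pi.sub_apply, Pi.zero_apply, Pi.smul_apply, smul_eq_mul] at h4 ⊢
  linarith

theorem pow4_mulVec (M : Matrix (Fin 7) (Fin 7) ℤ) (x : Fin 7 → ℤ) : M ^ 4 *ᵥ x = M *ᵥ (M *ᵥ (M *ᵥ (M *ᵥ x))) := by
  rw [show (4 : ℕ) = 1 + 1 + 1 + 1 from rfl, pow_add, pow_add, pow_add, pow_one]
  simp only [Matrix.mulVec_mulVec, Matrix.mul_assoc]

theorem eig4 {M : Matrix (Fin 7) (Fin 7) ℤ} {e : ℤ} (he : e * e = 1) {β : Fin 7 → ℤ} (hβ : M *ᵥ β = e • β) :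
    M ^ 4 *ᵥ β = β := by
  rw [pow4_mulVec, hβ, Matrix.mulVec_smul, hβ, smul_smul, he, one_smul, hβ, Matrix.mulVec_smul, hβ, smul_smul, he, one_smul]

end Cfsg.Agent.H17E7
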