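import Cfsg.Agent.ChevF.E7W
import Cfsg.Agent.H17E7.W1a


set_option autoImplicit false
set_option maxRecDepth 100000

/-!
Tables and a lemma on permutations of 126 points.
-/

namespace Cfsg.Agent.H17E7

open Cfsg.Lie Cfsg.Agent.Chev Cfsg.Agent.ChevGrp Cfsg.Agent.ChevF Matrix Polynomial

/-- a permutation of 126 points with square one and sign one has a fixed point -/
theorem exists_fix {h : Equiv.Perm (Fin 126)} (h2 : h ^ 2 = 1) (hs : Equiv.Perm.sign h = 1) : ∃ s, h s = s := by
  classical
  by_contra hcon
  push Not at hcon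
  have hne : h ≠ 1 := by
    intro e
    apply hcon 0
    rw [e]; rfl
  have ho : orderOf h = 2 := orderOf_eq_prime h2 hne
  obtain ⟨n, hn⟩ := Equiv.Perm.cycleType_prime_order (σ := h) (by rw [ho]; norm_num)
  rw [ho] at hn
  have hsum := Equiv.Perm.sum_cycleType h
  have hsupp : h.support = Finset.univ := by
    ext s
    simp only [Equiv.Perm.mem_support, Finset.mem_univ, iff_true]
    exact hcon s
  rw [hsupp, Finset.card_univ, Fintype.card_fin, hn, Multiset.sum_replicate, smul_eq_mul] at hsum
  have hn' : n = 62 := by omega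
  have hsg := Equiv.Perm.sign_of_cycleType h
  rw [hn, hn', Multiset.sum_replicate, Multiset.card_replicate, hs] at hsg
  exact absurd hsg (by decide)

/-- the form -/
def fm (s t : Fin 126) : ℤ := rv7 s ⬝ᵥ (CE7 *ᵥ rv7 t)

theorem tab32 : ∀ s : Fin 126, (Finset.univ.filter fun t : Fin 126 => fm t s = 1).card = 32 := by decide +kernel

end Cfsg.Agent.H17E7
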